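import Mathlib

/-! Antiflag transitive groups over `F₂`: basic lemmas, trilinear forms, friendship graph. -/

set_option autoImplicit false
set_option linter.style.haveILetI false

namespace CF.AFl

open Module

abbrev F2 := ZMod 2

theorem f2_cases (a : F2) : a = 0 ∨ a = 1 := by revert a; decide

theorem f2_add_self (a : F2) : a + a = 0 := by revert a; decide

theorem f2_eq_of_iff {a b : F2} (h : a = 0 ↔ b = 0) : a = b := by revert a b; decide

theorem f2_add_eq_zero {a b : F2} : a + b = 0 ↔ a = b := by revert a b; decide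

theorem f2_ne_zero {a : F2} : a ≠ 0 ↔ a = 1 := by revert a; decide

section basic
variable {V : Type*} [AddCommGroup V] [Module F2 V]

theorem add_self (x : V) : x + x = 0 := by
  rw [← two_nsmul]; exact ZModModule.char_nsmul_eq_zero 2 x

theorem neg_eq (x : V) : -x = x := neg_eq_of_add_eq_zero_left (add_self x)

theorem sub_eq (x y : V) : x - y = x + y := by rw [sub_eq_add_neg, neg_eq]

theorem add_eq_zero {x y : V} : x + y = 0 ↔ x = y := by
  rw [← sub_eq, sub_eq_zero]

theorem add_add_cancel (x y : V) : x + (x + y) = y := by rw [← add_assoc, add_self, zero_add]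

theorem add_cancel_add (x y : V) : x + y + y = x := by rw [add_assoc, add_self, add_zero]

theorem mem_span1 {x y : V} : y ∈ Submodule.span F2 {x} ↔ y = 0 ∨ y = x := by
  rw [Submodule.mem_span_singleton]
  constructor
  · rintro ⟨a, rfl⟩
    rcases f2_cases a with rfl | rfl <;> simp
  · rintro (rfl | rfl)
    · exact ⟨0, by simp⟩
    · exact ⟨1, by simp⟩

theorem mem_sup1 {U : Submodule F2 V} {x y : V} :
    y ∈ U ⊔ Submodule.span F2 {x} ↔ y ∈ U ∨ y + x ∈ U := by
  rw [Submodule.mem_sup]
  constructor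
  · rintro ⟨u, hu, z, hz, rfl⟩
    rcases mem_span1.1 hz with rfl | rfl
    · left; simpa using hu
    · right; rwa [add_cancel_add]
  · rintro (h | h)
    · exact ⟨y, h, 0, Submodule.zero_mem _, by simp⟩
    · exact ⟨y + x, h, x, mem_span1.2 (Or.inr rfl), add_cancel_add _ _⟩

/-- independent pairs -/
def I2 (x y : V) : Prop := x ≠ 0 ∧ y ≠ 0 ∧ x ≠ y

/-- independent triples -/
def I3 (x y z : V) : Prop :=
  x ≠ 0 ∧ y ≠ 0 ∧ z ≠ 0 ∧ x + y ≠ 0 ∧ x + z ≠ 0 ∧ y + z ≠ 0 ∧ x + y + z ≠ 0

theorem I2.symm {x y : V} (h : I2 x y) : I2 y x := ⟨h.2.1, h.1, h.2.2.symm⟩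

theorem I2.add {x y : V} (h : I2 x y) : I2 x (x + y) :=
  ⟨h.1, fun e => h.2.2 (add_eq_zero.1 e), fun e => h.2.1 (by simpa using e)⟩

theorem I3.i2 {x y z : V} (h : I3 x y z) : I2 x y :=
  ⟨h.1, h.2.1, fun e => h.2.2.2.1 (add_eq_zero.2 e)⟩

theorem I3.p12 {x y z : V} (h : I3 x y z) : I3 y x z := by
  obtain ⟨a, b, c, d, e, f, g⟩ := h
  exact ⟨b, a, c, by rwa [add_comm], f, e, by rwa [add_comm y]⟩

theorem I3.p23 {x y z : V} (h : I3 x y z) : I3 x z y := by
  obtain ⟨a, b, c, d, e, f, g⟩ := h
  exact ⟨a, c, b, e, d, by rwa [add_comm], by rwa [add_right_comm]⟩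

theorem I3.add13 {x y z : V} (h : I3 x y z) : I3 x y (z + x) := by
  obtain ⟨a, b, c, d, e, f, g⟩ := h
  refine ⟨a, b, by rwa [add_comm], d, ?_, ?_, ?_⟩
  · rwa [add_comm z, add_add_cancel]
  · rwa [show y + (z + x) = x + y + z by abel]
  · rwa [show x + y + (z + x) = x + (x + (y + z)) by abel, add_add_cancel]

theorem i3_iff {x y z : V} (h : I2 x y) :
    I3 x y z ↔ ¬ (z = 0 ∨ z = x ∨ z = y ∨ z = x + y) := by
  constructor
  · rintro ⟨a, b, c, d, e, f, g⟩ (rfl | rfl | rfl | rfl)
    · exact c rfl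
    · exact e (add_self _)
    · exact f (add_self _)
    · exact g (add_self _)
  · intro hn
    push Not at hn
    obtain ⟨a, b, c, d⟩ := hn
    exact ⟨h.1, h.2.1, a, fun e => h.2.2 (add_eq_zero.1 e), fun e => b (add_eq_zero.1 e).symm,
      fun e => c (add_eq_zero.1 e).symm, fun e => d (add_eq_zero.1 e).symm⟩

theorem I2.map {x y : V} (h : I2 x y) (g : V ≃ₗ[F2] V) : I2 (g x) (g y) :=
  ⟨by simpa using h.1, by simpa using h.2.1, by simpa using h.2.2⟩

theorem I3.map {x y z : V} (h : I3 x y z) (g : V ≃ₗ[F2] V) : I3 (g x) (g y) (g z) := by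
  obtain ⟨a, b, c, d, e, f, k⟩ := h
  simp only [I3, ← map_add, ne_eq, EmbeddingLike.map_eq_zero_iff]
  exact ⟨a, b, c, d, e, f, k⟩

theorem i3_map_iff {x y z : V} (g : V ≃ₗ[F2] V) : I3 (g x) (g y) (g z) ↔ I3 x y z :=
  ⟨fun h => by simpa using h.map g.symm, fun h => h.map g⟩

theorem i2_map_iff {x y : V} (g : V ≃ₗ[F2] V) : I2 (g x) (g y) ↔ I2 x y :=
  ⟨fun h => by simpa using h.map g.symm, fun h => h.map g⟩

theorem card_sub [Finite V] (U : Submodule F2 V) : (U : Set V).ncard = 2 ^ finrank F2 U := by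
  rw [← Nat.card_coe_set_eq]
  have := Module.natCard_eq_pow_finrank (K := F2) (V := U)
  simpa [F2] using this

theorem card_top [Finite V] : Nat.card V = 2 ^ finrank F2 V := by
  have := Module.natCard_eq_pow_finrank (K := F2) (V := V)
  simpa [F2] using this

/-- A symmetric relation whose fibres are kernels of functionals is a bilinear form. -/
theorem exists_bil (r : V → V → Prop) (hs : ∀ a b, r a b → r b a)
    (h : ∀ a, ∃ φ : Dual F2 V, ∀ b, r a b ↔ φ b = 0) :
    ∃ β : V →ₗ[F2] V →ₗ[F2] F2, ∀ a b, r a b ↔ β a b = 0 := by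
  choose φ hφ using h
  have hsym : ∀ a b, φ a b = φ b a := fun a b => f2_eq_of_iff (by
    rw [← hφ, ← hφ]; exact ⟨hs _ _, hs _ _⟩)
  let β : V →+ Dual F2 V := AddMonoidHom.mk' φ (fun a a' => by
    ext b
    simp only [LinearMap.add_apply]
    rw [hsym, map_add, hsym b, hsym b])
  exact ⟨β.toZModLinearMap 2, fun a b => hφ a b⟩

end basic

section friend

theorem no_friend {α : Type*} [Fintype α] [DecidableEq α] (hc : Fintype.card α = 31)
    (r : α → α → Prop) [DecidableRel r] (hs : ∀ a b, r a b → r b a) (hi : ∀ a, ¬ r a a)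
    (hd : ∀ a, (Finset.univ.filter (r a)).card = 6)
    (h1 : ∀ a b, a ≠ b → (Finset.univ.filter (fun c => r a c ∧ r b c)).card = 1) : False := by
  haveI : Fact (Nat.Prime 5) := ⟨by norm_num⟩
  let A : Matrix α α (ZMod 5) := Matrix.of fun a b => if r a b then 1 else 0
  let J : Matrix α α (ZMod 5) := Matrix.of fun _ _ => 1
  have hAA : A * A = J := by
    ext a b
    simp only [A, J, Matrix.mul_apply, Matrix.of_apply]
    have : ∀ c, (if r a c then (1 : ZMod 5) else 0) * (if r c b then 1 else 0) =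
        if r a c ∧ r b c then 1 else 0 := by
      intro c
      by_cases h1 : r a c <;> by_cases h2 : r c b
      · simp [h1, h2, hs _ _ h2]
      · simp [h1, h2, show ¬ r b c from fun h => h2 (hs _ _ h)]
      · simp [h1]
      · simp [h1]
    simp only [this, Finset.sum_boole]
    by_cases hab : a = b
    · subst hab
      simp only [and_self]
      rw [hd]; rfl
    · rw [h1 a b hab]; simp
  have hAJ : A * J = J := by
    ext a b
    simp only [A, J, Matrix.mul_apply, Matrix.of_apply, mul_one, Finset.sum_boole]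
    rw [hd]; rfl
  have hJJ : J * J = J := by
    ext a b
    simp only [J, Matrix.mul_apply, Matrix.of_apply, mul_one, Finset.sum_const, Finset.card_univ, hc]
    rfl
  have h5 : A ^ 5 = J := by
    rw [show A ^ 5 = A * ((A * A) * (A * A)) by simp [pow_succ, mul_assoc], hAA, hJJ, hAJ]
  have ht := ZMod.trace_pow_card (p := 5) A
  rw [h5] at ht
  have h0 : A.trace = 0 := by simp [A, Matrix.trace, hi]
  have hJ : J.trace = 1 := by
    simp only [J, Matrix.trace, Matrix.diag, Matrix.of_apply, Finset.sum_const, Finset.card_univ, hc]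
    rfl
  rw [h0, hJ] at ht
  simp at ht

end friend

section tri
open MvPolynomial Matrix

abbrev PR (n : ℕ) := MvPolynomial (Fin n) F2

theorem no_poly {n : ℕ} (hn : 3 < n) (c : Fin n → Fin n → Fin n → F2)
    (h12 : ∀ i j k, c i j k = c j i k) (h23 : ∀ i j k, c i j k = c i k j) (h0 : ∀ i k, c i i k = 0)
    (hk : ∀ x w : Fin n → F2, x ≠ 0 → (∀ j, ∑ k, (∑ i, c i j k * x i) * w k = 0) → w = 0 ∨ w = x) :
    False := by
  classical
  let A : Matrix (Fin n) (Fin n) (PR n) := Matrix.of fun j k => ∑ i, C (c i j k) * X i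
  have hsum : ∀ {S : Type} [CommRing S] [CharP S 2] (d : Fin n → Fin n → S),
      (∀ i k, d i k = d k i) → (∀ i, d i i = 0) → ∑ k, ∑ i, d i k = 0 := by
    intro S _ _ d h1 h2
    rw [← Finset.sum_product']
    refine Finset.sum_involution (fun p _ => p.swap) ?_ ?_ (fun _ _ => by simp) (fun _ _ => rfl)
    · intro p _
      simp only [Prod.fst_swap, Prod.snd_swap]
      rw [h1 p.1]; exact CharTwo.add_self_eq_zero _
    · intro p _ hp e
      apply hp
      have : p.2 = p.1 := by simpa using congrArg Prod.fst e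
      rw [this, h2]
  have hAX : A *ᵥ (fun k => (X k : PR n)) = 0 := by
    ext1 j
    simp only [A, Matrix.mulVec, dotProduct, Matrix.of_apply, Pi.zero_apply]
    simp_rw [Finset.sum_mul]
    apply hsum (fun i k => C (c i j k) * X i * X k)
    · intro i k
      rw [h12 i j k, h23 j i k, ← h12 k j i]; ring
    · intro i
      rw [h23, h0]; simp
  have hsymm : Aᵀ = A := by
    ext1 j k
    simp only [A, Matrix.transpose_apply, Matrix.of_apply]
    exact Finset.sum_congr rfl fun i _ => by rw [h23]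
  let k0 : Fin n := ⟨0, by omega⟩
  have hdet : A.det = 0 := Matrix.exists_mulVec_eq_zero_iff.1 ⟨_, fun h => by
    have := congrFun h k0
    exact X_ne_zero k0 this, hAX⟩
  -- evaluation of diagonal cofactors
  have hev : ∀ (x : Fin n → F2) (k : Fin n), x k = 1 → eval x (A.adjugate k k) ≠ 0 := by
    intro x k hx
    rw [Matrix.adjugate_apply, RingHom.map_det]
    intro h
    obtain ⟨w, hw0, hw⟩ := Matrix.exists_mulVec_eq_zero_iff.2 h
    have hx0 : x ≠ 0 := fun e => by simp [e] at hx
    have hwk : w k = 0 := by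
      have := congrFun hw k
      simpa [Matrix.mulVec, dotProduct, Pi.single_apply, Matrix.updateRow_apply, apply_ite] using this
    have hwj : ∀ j, j ≠ k → ∑ l, (∑ i, c i j l * x i) * w l = 0 := by
      intro j hj
      have := congrFun hw j
      simpa [Matrix.mulVec, dotProduct, Matrix.updateRow_apply, hj, A] using this
    have hall : ∑ j, x j * ∑ l, (∑ i, c i j l * x i) * w l = 0 := by
      simp only [Finset.mul_sum, Finset.sum_mul]
      rw [Finset.sum_comm]
      apply Finset.sum_eq_zero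
      intro l _
      apply hsum (fun i j => x j * (c i j l * x i * w l))
      · intro i j; rw [h12]; ring
      · intro i; rw [h0]; simp
    rw [Finset.sum_eq_single k (fun j _ hj => by rw [hwj j hj, mul_zero]) (by simp), hx,
      one_mul] at hall
    rcases hk x w hx0 (fun j => by
      by_cases hj : j = k
      · rw [hj]; exact hall
      · exact hwj j hj) with h | h
    · exact hw0 h
    · rw [h, hx] at hwk; exact one_ne_zero hwk
  have h00 : A.adjugate k0 k0 ≠ 0 := fun h => hev (Pi.single k0 1) k0 (by simp) (by rw [h]; simp)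
  have hcol : ∀ k j, X k0 * A.adjugate k j = A.adjugate k0 j * X k := by
    intro k j
    have h1 : A *ᵥ (fun k => A.adjugate k j) = 0 := by
      ext1 i
      have := congrFun (congrFun (Matrix.mul_adjugate A) i) j
      rw [hdet, zero_smul] at this
      simpa [Matrix.mul_apply, Matrix.mulVec, dotProduct] using this
    let w : Fin n → PR n := fun k => X k0 * A.adjugate k j - A.adjugate k0 j * X k
    have hw : w = (X k0 : PR n) • (fun k => A.adjugate k j) - A.adjugate k0 j • (fun k => (X k : PR n)) := by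
      ext1 k; simp [w]
    have h2 : A *ᵥ w = 0 := by
      rw [hw, Matrix.mulVec_sub, Matrix.mulVec_smul, Matrix.mulVec_smul, h1, hAX]; simp
    have h3 : (A.updateRow k0 (Pi.single k0 1)) *ᵥ w = 0 := by
      ext1 i
      by_cases hi : i = k0
      · subst hi
        simp [Matrix.mulVec, dotProduct, Pi.single_apply, w, mul_comm]
      · have := congrFun h2 i
        simpa [Matrix.mulVec, dotProduct, Matrix.updateRow_apply, hi] using this
    have h4 : w = 0 := by
      by_contra hne
      exact h00 (by rw [Matrix.adjugate_apply]; exact Matrix.exists_mulVec_eq_zero_iff.1 ⟨w, hne, h3⟩)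
    exact sub_eq_zero.1 (congrFun h4 k)
  have hadj : ∀ k j, A.adjugate k j = A.adjugate j k := by
    intro k j
    have := congrFun (congrFun (Matrix.adjugate_transpose A) j) k
    rwa [hsymm, Matrix.transpose_apply] at this
  have hsq : ∀ k, X k0 ^ 2 * A.adjugate k k = X k ^ 2 * A.adjugate k0 k0 := by
    intro k
    calc X k0 ^ 2 * A.adjugate k k = X k0 * (X k0 * A.adjugate k k) := by ring
      _ = X k * (X k0 * A.adjugate k k0) := by rw [hcol, hadj k0 k]; ring
      _ = _ := by rw [hcol]; ring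
  let k1 : Fin n := ⟨1, by omega⟩
  have hdv : (X k0 : PR n) ^ 2 ∣ A.adjugate k0 k0 := by
    refine (X_prime (i := k0)).pow_dvd_of_dvd_mul_left 2 (a := X k1 ^ 2) ?_ ⟨_, (hsq k1).symm⟩
    intro h
    have := (X_prime (i := k0)).dvd_of_dvd_pow h
    rw [X_dvd_X] at this
    simp [k0, k1] at this
  obtain ⟨μ, hμ⟩ := hdv
  have hkk : ∀ k, A.adjugate k k = X k ^ 2 * μ := by
    intro k
    apply mul_left_cancel₀ (pow_ne_zero 2 (X_ne_zero (R := F2) k0))
    rw [hsq, hμ]; ring
  have hhom : (A.adjugate k0 k0).IsHomogeneous (n - 1) := by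
    rw [Matrix.adjugate_apply, Matrix.det_apply']
    refine IsHomogeneous.sum _ _ _ fun σ _ => ?_
    have : (∏ i, (A.updateRow k0 (Pi.single k0 1)) (σ i) i).IsHomogeneous
        (∑ i, if σ i = k0 then 0 else 1) := by
      refine IsHomogeneous.prod _ _ _ fun i _ => ?_
      by_cases hi : σ i = k0
      · simp only [hi, Matrix.updateRow_self, if_true, Pi.single_apply]
        split_ifs
        · exact isHomogeneous_one _ _
        · exact isHomogeneous_zero _ _ _
      · simp only [Matrix.updateRow_apply, hi, if_false, A, Matrix.of_apply]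
        exact IsHomogeneous.sum _ _ _ fun l _ => isHomogeneous_C_mul_X _ _
    have he : (∑ i, if σ i = k0 then 0 else 1) = n - 1 := by
      rw [Equiv.sum_comp σ (fun i => if i = k0 then 0 else 1), Finset.sum_ite]
      simp [Finset.filter_ne']
    rw [he] at this
    have h2 := (isHomogeneous_C (Fin n) ((Equiv.Perm.sign σ : ℤ) : F2)).mul this
    simpa using h2
  have hμ0 : μ ≠ 0 := fun h => h00 (by rw [hμ, h, mul_zero])
  have hdeg : μ.totalDegree < Fintype.card (Fin n) := by
    have h1 := hhom.totalDegree h00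
    rw [hμ, totalDegree_mul_of_isDomain (pow_ne_zero 2 (X_ne_zero _)) hμ0] at h1
    simp only [Fintype.card_fin]; omega
  have hz : eval (0 : Fin n → F2) μ = 0 := by
    have h1 : coeff (Finsupp.single k0 2 + 0) (A.adjugate k0 k0) = 0 :=
      hhom.coeff_eq_zero (by simp; omega)
    rw [hμ, X_pow_eq_monomial, coeff_monomial_mul, one_mul] at h1
    rw [eval_zero]; exact h1
  have hcw := char_dvd_card_solutions (K := F2) 2 hdeg
  have : Fintype.card {x : Fin n → F2 // eval x μ = 0} = 1 := by
    rw [Fintype.card_eq_one_iff]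
    refine ⟨⟨0, hz⟩, fun ⟨x, hx⟩ => Subtype.ext ?_⟩
    by_contra hne
    obtain ⟨k, hk⟩ := Function.ne_iff.1 hne
    apply hev x k (f2_ne_zero.1 hk)
    rw [hkk]; simp [hx]
  rw [this] at hcw
  omega

variable {V : Type*} [AddCommGroup V] [Module F2 V] [Finite V]

/-- No everywhere nondegenerate alternating trilinear form in dimension `> 3`. -/
theorem no_tri (hn : 3 < finrank F2 V) (T : V → V → V → Prop)
    (h12 : ∀ x y z, T x y z → T y x z) (h23 : ∀ x y z, T x y z → T x z y)
    (dep : ∀ x y, ¬ I2 x y → ∀ z, T x y z)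
    (hyp : ∀ x y, I2 x y → ∃ φ : Dual F2 V, φ ≠ 0 ∧ ∀ z, T x y z ↔ φ z = 0) : False := by
  classical
  have hb : ∀ x, ∃ β : V →ₗ[F2] V →ₗ[F2] F2, ∀ a b, T x a b ↔ β a b = 0 := fun x =>
    exists_bil (T x) (h23 x) fun a => by
      by_cases h : I2 x a
      · obtain ⟨φ, -, h⟩ := hyp x a h
        exact ⟨φ, h⟩
      · exact ⟨0, fun b => by simp [dep x a h b]⟩
  choose β hβ using hb
  have s12 : ∀ x y z, β x y z = β y x z := fun x y z => f2_eq_of_iff (by
    rw [← hβ, ← hβ]; exact ⟨h12 _ _ _, h12 _ _ _⟩)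
  have s23 : ∀ x y z, β x y z = β x z y := fun x y z => f2_eq_of_iff (by
    rw [← hβ, ← hβ]; exact ⟨h23 _ _ _, h23 _ _ _⟩)
  let e := Module.finBasis F2 V
  refine no_poly hn (fun i j k => β (e i) (e j) (e k)) (fun _ _ _ => s12 _ _ _)
    (fun _ _ _ => s23 _ _ _) (fun i k => (hβ _ _ _).1 (dep _ _ (fun h => h.2.2 rfl) _)) ?_
  intro x w hx hw
  let x' := e.equivFun.symm x
  let w' := e.equivFun.symm w
  have hx' : x' = ∑ i, x i • e i := e.equivFun_symm_apply x
  have hw' : w' = ∑ i, w i • e i := e.equivFun_symm_apply w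
  have h1 : ∀ j, β (e j) x' w' = 0 := by
    intro j
    rw [← hw j, hx', hw']
    simp only [map_sum, map_smul, LinearMap.sum_apply, LinearMap.smul_apply, smul_eq_mul,
      Finset.sum_mul, Finset.mul_sum]
    refine Finset.sum_congr rfl fun k _ => Finset.sum_congr rfl fun i _ => ?_
    rw [s12 (e j)]; ring
  have h2 : β x' w' = 0 := e.ext fun j => by rw [s23, s12, h1]; simp
  have h3 : ¬ I2 x' w' := fun h => by
    obtain ⟨φ, h0, hφ⟩ := hyp _ _ h
    exact h0 (LinearMap.ext fun z => (hφ z).1 ((hβ _ _ _).2 (by simp [h2])))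
  have hx0 : x' ≠ 0 := fun h => hx (e.equivFun.symm.map_eq_zero_iff.1 h)
  by_contra hc
  push Not at hc
  exact h3 ⟨hx0, fun h => hc.1 (e.equivFun.symm.map_eq_zero_iff.1 h), fun h => hc.2 (e.equivFun.symm.injective h).symm⟩

end tri

end CF.AFl
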