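import Cfsg.Agent.AFl.A
import Cfsg.Agent.Geom.Stab

/-! Doubly transitive linear groups over `F₂`: duality, antiflags, Sylow layers. -/

set_option autoImplicit false
set_option linter.style.haveILetI false

namespace CF.AFl

open Module CF.Geom

variable {V : Type*} [AddCommGroup V] [Module F2 V]

abbrev GL2 (V : Type*) [AddCommGroup V] [Module F2 V] := V ≃ₗ[F2] V

/-- 2-transitivity on non-zero vectors -/
def Tr2 (G : Subgroup (GL2 V)) : Prop :=
  ∀ x y x' y' : V, I2 x y → I2 x' y' → ∃ g ∈ G, g x = x' ∧ g y = y'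

/-- contragredient -/
def dl : GL2 V →* GL2 (Dual F2 V) where
  toFun g := g.symm.dualMap
  map_one' := by ext; rfl
  map_mul' _ _ := by ext; rfl

@[simp] theorem dl_apply (g : GL2 V) (f : Dual F2 V) (v : V) : dl g f v = f (g.symm v) := rfl

def stabQuot (G : Subgroup (GL2 V)) (U : Submodule F2 V) : stabSet G U →* GL2 (V ⧸ U) where
  toFun g := Submodule.Quotient.equiv U U g.1.1 (mem_stabSet_iff_map_eq.1 g.2)
  map_one' := by ext x; induction x using Submodule.Quotient.induction_on; rfl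
  map_mul' _ _ := by ext x; induction x using Submodule.Quotient.induction_on; rfl

@[simp] theorem stabQuot_apply (G : Subgroup (GL2 V)) (U : Submodule F2 V) (g : stabSet G U)
    (v : V) : stabQuot G U g (Submodule.Quotient.mk v) = Submodule.Quotient.mk (g.1.1 v) := rfl

theorem exists_dual {U : Submodule F2 V} {y : V} (hy : y ∉ U) :
    ∃ f : Dual F2 V, f y = 1 ∧ ∀ u ∈ U, f u = 0 := by
  by_contra h
  apply hy
  rw [← Subspace.forall_mem_dualAnnihilator_apply_eq_zero_iff]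
  intro f hf
  by_contra h1
  exact h ⟨f, f2_ne_zero.1 h1, (Submodule.mem_dualAnnihilator f).1 hf⟩

theorem exists_dual1 {y : V} (hy : y ≠ 0) : ∃ f : Dual F2 V, f y = 1 := by
  obtain ⟨f, h, -⟩ := exists_dual (U := ⊥) (y := y) (by simpa using hy)
  exact ⟨f, h⟩

theorem exists_eq_one {f : Dual F2 V} (hf : f ≠ 0) : ∃ v, f v = 1 := by
  by_contra h
  push Not at h
  exact hf (LinearMap.ext fun v => by simpa using mt f2_ne_zero.1 (h v))

variable [Finite V]

instance finiteGL2 : Finite (GL2 V) :=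
  Finite.of_injective (fun g : GL2 V => (g : V → V)) DFunLike.coe_injective

instance finiteDual2 : Finite (Dual F2 V) :=
  Finite.of_injective (fun g : Dual F2 V => (g : V → F2)) DFunLike.coe_injective

instance finiteQuot2 (U : Submodule F2 V) : Finite (V ⧸ U) :=
  Finite.of_surjective _ (Submodule.mkQ_surjective U)

theorem exists_notMem {U : Submodule F2 V} (h : finrank F2 U < finrank F2 V) : ∃ y, y ∉ U := by
  by_contra hc
  push Not at hc
  rw [Submodule.eq_top_iff'.2 hc, finrank_top] at h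
  omega

theorem exists_I2 (hn : 2 ≤ finrank F2 V) {x : V} (hx : x ≠ 0) : ∃ y, I2 x y := by
  obtain ⟨y, hy⟩ := exists_notMem (U := Submodule.span F2 {x})
    (by rw [finrank_span_singleton hx]; omega)
  rw [mem_span1, not_or] at hy
  exact ⟨y, hx, hy.1, Ne.symm hy.2⟩

theorem Tr2.tr1 {G : Subgroup (GL2 V)} (h : Tr2 G) (hn : 2 ≤ finrank F2 V) {x x' : V} (hx : x ≠ 0)
    (hx' : x' ≠ 0) : ∃ g ∈ G, g x = x' := by
  obtain ⟨y, hy⟩ := exists_I2 hn hx
  obtain ⟨y', hy'⟩ := exists_I2 hn hx'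
  obtain ⟨g, hg, h1, -⟩ := h _ _ _ _ hy hy'
  exact ⟨g, hg, h1⟩

/-- Orbits on a space and on its dual are equinumerous. -/
theorem orb_dual (H : Subgroup (GL2 V)) {α : Type} [Finite α] (c : V → α)
    (hc : ∀ v w, c v = c w → ∃ h ∈ H, h v = w) (d : Dual F2 V → α) (hd : Function.Surjective d)
    (hinv : ∀ h ∈ H, ∀ f, d (dl h f) = d f) {f f' : Dual F2 V} (hf : d f = d f') :
    ∃ h ∈ H, dl h f = f' := by
  classical
  letI : MulAction H (Dual F2 V) := MulAction.compHom _ (dl.comp H.subtype)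
  have hsm : ∀ (h : H) (f : Dual F2 V), h • f = dl h.1 f := fun _ _ => rfl
  letI := Fintype.ofFinite H
  letI : ∀ g : H, Fintype (MulAction.fixedBy V g) := fun _ => Fintype.ofFinite _
  letI : ∀ g : H, Fintype (MulAction.fixedBy (Dual F2 V) g) := fun _ => Fintype.ofFinite _
  letI := Fintype.ofFinite (Quotient (MulAction.orbitRel H V))
  letI := Fintype.ofFinite (Quotient (MulAction.orbitRel H (Dual F2 V)))
  have b1 := MulAction.sum_card_fixedBy_eq_card_orbits_mul_card_group H V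
  have b2 := MulAction.sum_card_fixedBy_eq_card_orbits_mul_card_group H (Dual F2 V)
  have hfix : ∀ g : H, Fintype.card (MulAction.fixedBy V g) =
      Fintype.card (MulAction.fixedBy (Dual F2 V) g) := by
    intro g
    let e : V →ₗ[F2] V := (g.1.symm : V →ₗ[F2] V) - LinearMap.id
    have h1 : MulAction.fixedBy V g = (LinearMap.ker e : Set V) := by
      ext v
      simp only [MulAction.mem_fixedBy, SetLike.mem_coe, LinearMap.mem_ker, e, LinearMap.sub_apply,
        LinearMap.id_apply, sub_eq_zero, LinearEquiv.coe_coe, LinearEquiv.symm_apply_eq]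
      exact eq_comm
    have h2 : MulAction.fixedBy (Dual F2 V) g =
        ((LinearMap.range e).dualAnnihilator : Set (Dual F2 V)) := by
      ext f
      simp only [MulAction.mem_fixedBy, SetLike.mem_coe, Submodule.mem_dualAnnihilator, hsm,
        LinearMap.mem_range, forall_exists_index, forall_apply_eq_imp_iff, e, LinearMap.sub_apply,
        LinearMap.id_apply, map_sub, sub_eq_zero, LinearEquiv.coe_coe, LinearMap.ext_iff, dl_apply]
    rw [← Nat.card_eq_fintype_card, ← Nat.card_eq_fintype_card, Nat.card_coe_set_eq,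
      Nat.card_coe_set_eq, h1, h2, card_sub, card_sub]
    have := Subspace.finrank_add_finrank_dualAnnihilator_eq (LinearMap.range e)
    have := e.finrank_range_add_finrank_ker
    congr 1; omega
  have hq : Fintype.card (Quotient (MulAction.orbitRel H V)) =
      Fintype.card (Quotient (MulAction.orbitRel H (Dual F2 V))) := by
    simp only [hfix] at b1
    exact Nat.eq_of_mul_eq_mul_right Fintype.card_pos (b1.symm.trans b2)
  have h1 : Nat.card (Quotient (MulAction.orbitRel H V)) ≤ Nat.card α := by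
    refine Nat.card_le_card_of_injective (fun q => c q.out) fun q q' h => ?_
    obtain ⟨g, hg, e⟩ := hc _ _ h
    rw [← q.out_eq, ← q'.out_eq]
    exact Quotient.sound' (MulAction.orbitRel_apply.2 ⟨⟨g, hg⟩⁻¹, by
      show (⟨g, hg⟩ : H)⁻¹ • q'.out = q.out
      rw [inv_smul_eq_iff]; exact e.symm⟩)
  let D : Quotient (MulAction.orbitRel H (Dual F2 V)) → α := Quotient.lift d (by
    rintro a b ⟨g, rfl⟩
    exact hinv g.1 g.2 b)
  have hD : Function.Surjective D := fun a => by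
    obtain ⟨f, rfl⟩ := hd a
    exact ⟨Quotient.mk _ f, rfl⟩
  have hb : Function.Bijective D := by
    rw [Nat.card_eq_fintype_card, hq, ← Nat.card_eq_fintype_card] at h1
    exact (Nat.bijective_iff_surjective_and_card D).2
      ⟨hD, le_antisymm h1 (Nat.card_le_card_of_surjective D hD)⟩
  have : (Quotient.mk _ f' : Quotient (MulAction.orbitRel H (Dual F2 V))) = Quotient.mk _ f :=
    hb.1 hf.symm
  obtain ⟨g, hg⟩ := MulAction.orbitRel_apply.1 (Quotient.exact this)
  exact ⟨g.1, g.2, hg⟩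

theorem Tr2.af {G : Subgroup (GL2 V)} (h : Tr2 G) (hn : 2 ≤ finrank F2 V) {y : V} (hy : y ≠ 0)
    {f f' : Dual F2 V} (hf : f ≠ 0) (hf' : f' ≠ 0) (e : f y = f' y) :
    ∃ g ∈ G, g y = y ∧ dl g f = f' := by
  classical
  have := orb_dual (G ⊓ MulAction.stabilizer (GL2 V) y)
    (fun v => if v = 0 then (0 : Fin 3) else if v = y then 1 else 2) ?_
    (fun f => if f = 0 then (0 : Fin 3) else if f y = 1 then 1 else 2) ?_ ?_ (f := f) (f' := f')
    (by simp [hf, hf', e])
  · obtain ⟨g, hg, h1⟩ := this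
    exact ⟨g, hg.1, hg.2, h1⟩
  · intro v w hvw
    by_cases e0 : v = w
    · exact ⟨1, one_mem _, e0⟩
    have : v ≠ 0 ∧ w ≠ 0 ∧ v ≠ y ∧ w ≠ y := by
      split_ifs at hvw <;> simp_all
    obtain ⟨g, hg, a, b⟩ := h y v y w ⟨hy, this.1, this.2.2.1.symm⟩ ⟨hy, this.2.1, this.2.2.2.symm⟩
    exact ⟨g, ⟨hg, a⟩, b⟩
  · intro a
    obtain ⟨f1, h1⟩ := exists_dual1 hy
    obtain ⟨z, hz⟩ := exists_I2 hn hy
    obtain ⟨f2, h2, h3⟩ := exists_dual (U := Submodule.span F2 {y}) (y := z)
      (by rw [mem_span1, not_or]; exact ⟨hz.2.1, hz.2.2.symm⟩)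
    have h4 := h3 y (mem_span1.2 (Or.inr rfl))
    fin_cases a
    · exact ⟨0, by simp⟩
    · exact ⟨f1, by simp [h1, show f1 ≠ 0 from fun e => by simp [e] at h1]⟩
    · exact ⟨f2, by simp [h4, show f2 ≠ 0 from fun e => by simp [e] at h2]⟩
  · intro g hg f
    have : g.symm y = y := by rw [LinearEquiv.symm_apply_eq]; exact hg.2.symm
    simp [this]

theorem Tr2.af' {G : Subgroup (GL2 V)} (h : Tr2 G) (hn : 2 ≤ finrank F2 V) {y y' : V} (hy : y ≠ 0)
    (hy' : y' ≠ 0) {f f' : Dual F2 V} (hf : f ≠ 0) (hf' : f' ≠ 0) (e : f y = f' y') :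
    ∃ g ∈ G, g y = y' ∧ dl g f = f' := by
  obtain ⟨g1, hg1, e1⟩ := h.tr1 hn hy hy'
  obtain ⟨g2, hg2, e2, e3⟩ := h.af hn hy' (f := dl g1 f) (by simpa using hf) hf'
    (by rw [← e, ← e1]; simp)
  exact ⟨g2 * g1, mul_mem hg2 hg1, by simp [e1, e2], by rw [map_mul]; simpa using e3⟩

theorem Tr2.dual {G : Subgroup (GL2 V)} (h : Tr2 G) (hn : 2 ≤ finrank F2 V) : Tr2 (G.map dl) := by
  classical
  have hn' : 2 ≤ finrank F2 (Dual F2 V) := by rwa [Subspace.dual_finrank_eq]
  have key : ∀ f g g' : Dual F2 V, I2 f g → I2 f g' → ∃ k ∈ G, dl k f = f ∧ dl k g = g' := by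
    intro f g g' hg hg'
    have := orb_dual (G ⊓ (MulAction.stabilizer _ f).comap dl)
      (fun v => if v = 0 then (0 : Fin 3) else if f v = 1 then 1 else 2) ?_
      (fun φ => if φ = 0 then (0 : Fin 3) else if φ = f then 1 else 2) ?_ ?_ (f := g) (f' := g')
      (by simp [hg.2.1, hg'.2.1, hg.2.2.symm, hg'.2.2.symm])
    · obtain ⟨k, hk, h1⟩ := this
      exact ⟨k, hk.1, hk.2, h1⟩
    · intro v w hvw
      by_cases h1 : v = 0 <;> by_cases h2 : w = 0
      · exact ⟨1, one_mem _, by simp [*]⟩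
      · simp only [h1, h2, if_true, if_false] at hvw; split_ifs at hvw <;> simp at hvw
      · simp only [h1, h2, if_true, if_false] at hvw; split_ifs at hvw <;> simp at hvw
      · obtain ⟨k, hk, a, b⟩ := h.af' hn h1 h2 hg.1 hg.1 (by
          rcases f2_cases (f v) with e | e <;> rcases f2_cases (f w) with e' | e' <;>
            simp_all)
        exact ⟨k, ⟨hk, b⟩, a⟩
    · intro a
      fin_cases a
      · exact ⟨0, by simp⟩
      · exact ⟨f, by simp [hg.1]⟩
      · exact ⟨g, by simp [hg.2.1, hg.2.2.symm]⟩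
    · intro k hk φ
      have e : dl k f = f := hk.2
      have : dl k φ = f ↔ φ = f := by
        constructor
        · intro h; exact (dl k).injective (h.trans e.symm)
        · rintro rfl; exact e
      simp [this]
  intro f g f' g' hfg hfg'
  obtain ⟨v, hv⟩ := exists_eq_one hfg.1
  obtain ⟨v', hv'⟩ := exists_eq_one hfg'.1
  obtain ⟨k1, hk1, -, e1⟩ := h.af' hn (y := v) (y' := v') (fun e => by simp [e] at hv)
    (fun e => by simp [e] at hv') hfg.1 hfg'.1 (by rw [hv, hv'])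
  obtain ⟨k2, hk2, e2, e3⟩ := key f' (dl k1 g) g' (e1 ▸ hfg.map (dl k1)) hfg'
  exact ⟨dl (k2 * k1), ⟨_, mul_mem hk2 hk1, rfl⟩, by rw [map_mul]; simp [e1, e2],
    by rw [map_mul]; simpa using e3⟩

theorem card_aff {U : Submodule F2 V} {y : V} (hy : y ∉ U) :
    {f : Dual F2 V | f y = 1 ∧ ∀ u ∈ U, f u = 0}.ncard = 2 ^ (finrank F2 V - finrank F2 U - 1) := by
  obtain ⟨f0, h1, h2⟩ := exists_dual hy
  have : {f : Dual F2 V | f y = 1 ∧ ∀ u ∈ U, f u = 0} =
      (fun f => f + f0) '' ((U ⊔ Submodule.span F2 {y}).dualAnnihilator : Set (Dual F2 V)) := by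
    ext f
    simp only [Set.mem_setOf_eq, Set.mem_image, SetLike.mem_coe, Submodule.mem_dualAnnihilator]
    constructor
    · rintro ⟨a, b⟩
      refine ⟨f + f0, fun w hw => ?_, add_cancel_add _ _⟩
      rcases mem_sup1.1 hw with hw | hw
      · simp [b w hw, h2 w hw]
      · have e1 := b _ hw
        have e2 := h2 _ hw
        rw [map_add, f2_add_eq_zero] at e1 e2
        simp [e1, e2, a, h1, f2_add_self]
    · rintro ⟨φ, hφ, rfl⟩
      refine ⟨?_, fun u hu => ?_⟩
      · simp [hφ y (mem_sup1.2 (Or.inr (by simp [add_self]))), h1]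
      · simp [hφ u (mem_sup1.2 (Or.inl hu)), h2 u hu]
  rw [this, Set.ncard_image_of_injective _ (add_left_injective f0), card_sub]
  have := Subspace.finrank_add_finrank_dualAnnihilator_eq (U ⊔ Submodule.span F2 {y})
  rw [Submodule.finrank_sup_span_singleton hy] at this
  congr 1; omega

theorem Tr2.dvd_index {G : Subgroup (GL2 V)} (h : Tr2 G) (hn : 2 ≤ finrank F2 V) {y : V}
    {f : Dual F2 V} (hf : f y = 1) (H : Subgroup G) (hH : ∀ g ∈ H, g.1 y = y ∧ dl g.1 f = f) :
    2 ^ (finrank F2 V - 1) ∣ H.relIndex (MulAction.stabilizer G y) := by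
  have hy : y ≠ 0 := fun e => by simp [e] at hf
  letI : MulAction G (Dual F2 V) := MulAction.compHom _ (dl.comp G.subtype)
  let Y := MulAction.stabilizer G y
  have h1 : (MulAction.stabilizer Y f).index = 2 ^ (finrank F2 V - 1) := by
    rw [MulAction.index_stabilizer]
    have := card_aff (U := ⊥) (y := y) (by simpa using hy)
    simp only [finrank_bot, Nat.sub_zero] at this
    rw [← this]
    congr 1
    ext φ
    constructor
    · rintro ⟨g, rfl⟩
      have e : g.1.1.symm y = y := by rw [LinearEquiv.symm_apply_eq]; exact g.2.symm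
      exact ⟨by show f (g.1.1.symm y) = 1; rw [e, hf], by simp⟩
    · rintro ⟨a, -⟩
      obtain ⟨g, hg, b, c⟩ := h.af hn hy (f := f) (f' := φ) (fun e => by simp [e] at hf)
        (fun e => by simp [e] at a) (by rw [hf, a])
      exact ⟨⟨⟨g, hg⟩, b⟩, c⟩
  rw [← h1]
  exact Subgroup.index_dvd_of_le fun g hg => (hH _ hg).2

/-- the layer property -/
def Lay (S : Subgroup (GL2 V)) : Prop :=
  ∀ (U : Submodule F2 V) (y : V), (∀ s ∈ S, ∀ u ∈ U, s u ∈ U) → y ∉ U → (∀ s ∈ S, s y + y ∈ U) →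
    ∀ u ∈ U, ∃ s ∈ S, s y = y + u

theorem Tr2.lay {G : Subgroup (GL2 V)} (h : Tr2 G) (hn : 2 ≤ finrank F2 V) (S : Sylow 2 G) :
    Lay ((S : Subgroup G).map G.subtype) := by
  intro U y hU hy hm
  letI : MulAction G (Dual F2 V) := MulAction.compHom _ (dl.comp G.subtype)
  obtain ⟨f0, h1, h2⟩ := exists_dual hy
  let T : Subgroup G := (S : Subgroup G) ⊓ MulAction.stabilizer G y
  let H : Subgroup G := T ⊓ MulAction.stabilizer G f0
  have d1 : 2 ^ (finrank F2 V - 1) ∣ H.index :=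
    (h.dvd_index hn h1 H fun g hg => ⟨hg.1.2, hg.2⟩).trans
      (Subgroup.relIndex_dvd_index_of_le fun g hg => hg.1.2)
  rw [← Subgroup.relIndex_mul_index (inf_le_left : H ≤ T),
    ← Subgroup.relIndex_mul_index (inf_le_left : T ≤ S), ← mul_assoc] at d1
  have d2 : 2 ^ (finrank F2 V - 1) ∣ H.relIndex T * T.relIndex S :=
    (Nat.Coprime.pow_left _ ((Nat.Prime.coprime_iff_not_dvd Nat.prime_two).2
      S.not_dvd_index)).dvd_of_dvd_mul_right d1
  have e1 : H.relIndex T = (MulAction.orbit T f0).ncard := by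
    rw [← MulAction.index_stabilizer, Subgroup.relIndex]
    congr 1
    ext g; simp [H, Subgroup.mem_subgroupOf]; rfl
  have e2 : T.relIndex S = (MulAction.orbit (S : Subgroup G) y).ncard := by
    rw [← MulAction.index_stabilizer, Subgroup.relIndex]
    congr 1
    ext g; simp [T, Subgroup.mem_subgroupOf]; rfl
  have l1 : (MulAction.orbit T f0).ncard ≤ 2 ^ (finrank F2 V - finrank F2 U - 1) := by
    rw [← card_aff hy]
    refine Set.ncard_le_ncard ?_ (Set.toFinite _)
    rintro _ ⟨g, rfl⟩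
    have e : g.1.1.symm y = y := by rw [LinearEquiv.symm_apply_eq]; exact g.2.2.symm
    refine ⟨by show f0 (g.1.1.symm y) = 1; rw [e, h1], fun u hu => ?_⟩
    exact h2 _ (hU _ ⟨g.1⁻¹, inv_mem g.2.1, rfl⟩ u hu)
  have hsub : MulAction.orbit (S : Subgroup G) y ⊆ (fun u => y + u) '' U := by
    rintro _ ⟨g, rfl⟩
    exact ⟨g.1.1 y + y, hm _ ⟨g.1, g.2, rfl⟩, by
      show y + (g.1.1 y + y) = g.1.1 y
      rw [add_comm (g.1.1 y), add_add_cancel]⟩
  have hlt : finrank F2 U < finrank F2 V := Submodule.finrank_lt fun e => hy (by simp [e])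
  have l2 : ((fun u => y + u) '' (U : Set V)).ncard ≤ (MulAction.orbit (S : Subgroup G) y).ncard := by
    rw [Set.ncard_image_of_injective _ (add_right_injective y), card_sub]
    have hpos : 0 < H.relIndex T * T.relIndex S :=
      Nat.pos_of_ne_zero (mul_ne_zero Subgroup.index_ne_zero_of_finite
        Subgroup.index_ne_zero_of_finite)
    have := (Nat.le_of_dvd hpos d2).trans (Nat.mul_le_mul_right _ (e1 ▸ l1))
    rw [e2, show finrank F2 V - 1 = (finrank F2 V - finrank F2 U - 1) + finrank F2 U by omega,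
      pow_add] at this
    exact Nat.le_of_mul_le_mul_left this (by positivity)
  have := Set.eq_of_subset_of_ncard_le hsub l2 (Set.toFinite _)
  intro u hu
  have hmem : y + u ∈ MulAction.orbit (S : Subgroup G) y := this ▸ ⟨u, hu, rfl⟩
  obtain ⟨g, hg⟩ := hmem
  exact ⟨g.1.1, ⟨g.1, g.2, rfl⟩, hg⟩

theorem exists_fixed_quot {S : Subgroup (GL2 V)} (hS : IsPGroup 2 S) {U : Submodule F2 V}
    (hU : ∀ s ∈ S, ∀ u ∈ U, s u ∈ U) (hne : U ≠ ⊤) : ∃ y, y ∉ U ∧ ∀ s ∈ S, s y + y ∈ U := by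
  letI : MulAction (stabSet S U) (V ⧸ U) := MulAction.compHom _ (stabQuot S U)
  have hd : 2 ∣ Nat.card (V ⧸ U) := by
    rw [card_top]
    have := Submodule.finrank_quotient_add_finrank U
    have := Submodule.finrank_lt hne
    exact dvd_pow_self 2 (by omega)
  obtain ⟨b, hb, hb0⟩ := (hS.to_subgroup (stabSet S U)).exists_fixed_point_of_prime_dvd_card_of_fixed_point
    (V ⧸ U) hd (a := 0) (fun g => map_zero (stabQuot S U g))
  induction b using Submodule.Quotient.induction_on with | H y =>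
  refine ⟨y, fun h => hb0 ((Submodule.Quotient.mk_eq_zero U).2 h).symm, fun s hs => ?_⟩
  have := hb ⟨⟨s, hs⟩, mem_stabSet_iff_le.2 (hU s hs)⟩
  rw [← sub_eq]
  exact (Submodule.Quotient.eq U).1 this

/-- An invariant flag whose layers are orbits. -/
structure Flag (S : Subgroup (GL2 V)) where
  v : ℕ → V
  U : ℕ → Submodule F2 V
  U0 : U 0 = ⊥
  succ : ∀ k, U (k + 1) = U k ⊔ Submodule.span F2 {v k}
  nm' : ∀ k, U k ≠ ⊤ → v k ∉ U k
  inv : ∀ k, ∀ s ∈ S, ∀ u ∈ U k, s u ∈ U k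
  mov : ∀ k, ∀ s ∈ S, s (v k) + v k ∈ U k
  lay : Lay S

theorem exists_flag {S : Subgroup (GL2 V)} (hS : IsPGroup 2 S) (hL : Lay S) : Nonempty (Flag S) := by
  have key : ∀ U : {U : Submodule F2 V // ∀ s ∈ S, ∀ u ∈ U, s u ∈ U},
      ∃ y, (U.1 ≠ ⊤ → y ∉ U.1) ∧ ∀ s ∈ S, s y + y ∈ U.1 := by
    intro U
    by_cases h : U.1 = ⊤
    · exact ⟨0, fun e => absurd h e, by simp⟩
    · obtain ⟨y, a, b⟩ := exists_fixed_quot hS U.2 h
      exact ⟨y, fun _ => a, b⟩
  choose nx h1 h2 using key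
  let st : {U : Submodule F2 V // ∀ s ∈ S, ∀ u ∈ U, s u ∈ U} →
      {U : Submodule F2 V // ∀ s ∈ S, ∀ u ∈ U, s u ∈ U} := fun U =>
    ⟨U.1 ⊔ Submodule.span F2 {nx U}, fun s hs u hu => by
      rcases mem_sup1.1 hu with hu | hu
      · exact mem_sup1.2 (Or.inl (U.2 s hs u hu))
      · refine mem_sup1.2 (Or.inr ?_)
        have := U.1.add_mem (U.2 s hs _ hu) (h2 U s hs)
        rwa [map_add, add_assoc, add_add_cancel] at this⟩
  let W : ℕ → {U : Submodule F2 V // ∀ s ∈ S, ∀ u ∈ U, s u ∈ U} := fun k =>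
    st^[k] ⟨⊥, by simp⟩
  exact ⟨⟨fun k => nx (W k), fun k => (W k).1, rfl,
    fun k => by simp only [W, Function.iterate_succ_apply', st], fun k => h1 _, fun k => (W k).2,
    fun k => h2 _, hL⟩⟩

namespace Flag
variable {S : Subgroup (GL2 V)} (Φ : Flag S)

theorem finrank_U {k : ℕ} (hk : k ≤ finrank F2 V) : finrank F2 (Φ.U k) = k := by
  induction k with
  | zero => rw [Φ.U0, finrank_bot]
  | succ k ih =>
    have h := ih (by omega)
    rw [Φ.succ, Submodule.finrank_sup_span_singleton, h]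
    exact Φ.nm' k fun e => by rw [e, finrank_top] at h; omega

theorem nm {k : ℕ} (hk : k < finrank F2 V) : Φ.v k ∉ Φ.U k :=
  Φ.nm' k fun e => by have := Φ.finrank_U hk.le; rw [e, finrank_top] at this; omega

omit [Finite V] in
theorem mono : Monotone Φ.U := monotone_nat_of_le_succ fun k => by rw [Φ.succ]; exact le_sup_left

omit [Finite V] in
theorem v_mem {k l : ℕ} (h : k < l) : Φ.v k ∈ Φ.U l :=
  Φ.mono h (by rw [Φ.succ]; exact mem_sup1.2 (Or.inr (by simp [add_self])))

theorem v_mem_iff {k l : ℕ} (hk : k < finrank F2 V) : Φ.v k ∈ Φ.U l ↔ k < l :=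
  ⟨fun h => by by_contra hc; exact Φ.nm hk (Φ.mono (by omega) h), Φ.v_mem⟩

theorem U_top : Φ.U (finrank F2 V) = ⊤ := Submodule.eq_top_of_finrank_eq (Φ.finrank_U le_rfl)

theorem exists_layer {z : V} (hz : z ≠ 0) :
    ∃ k < finrank F2 V, z ∉ Φ.U k ∧ z ∈ Φ.U (k + 1) := by
  classical
  have hex : ∃ k, z ∈ Φ.U k := ⟨_, by rw [Φ.U_top]; trivial⟩
  have h0 : Nat.find hex ≠ 0 := fun e => by
    have := Nat.find_spec hex
    rw [e, Φ.U0] at this
    exact hz (by simpa using this)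
  obtain ⟨k, hk⟩ := Nat.exists_eq_succ_of_ne_zero h0
  have h1 : Nat.find hex ≤ finrank F2 V := Nat.find_min' hex (by rw [Φ.U_top]; trivial)
  exact ⟨k, by omega, Nat.find_min hex (by omega), by have := Nat.find_spec hex; rwa [hk] at this⟩

theorem to_layer {k : ℕ} {z : V} (h1 : z ∉ Φ.U k) (h2 : z ∈ Φ.U (k + 1)) :
    ∃ s ∈ S, s (Φ.v k) = z := by
  rw [Φ.succ, mem_sup1] at h2
  have h3 := h2.resolve_left h1
  obtain ⟨s, hs, e⟩ := Φ.lay (Φ.U k) (Φ.v k) (Φ.inv k) (Φ.nm' k fun e => h1 (by simp [e]))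
    (Φ.mov k) _ h3
  exact ⟨s, hs, by rw [e, add_comm z, add_add_cancel]⟩

theorem move {k : ℕ} {z u : V} (h1 : z ∉ Φ.U k) (hu : u ∈ Φ.U k) : ∃ s ∈ S, s z = z + u := by
  obtain ⟨l, -, a, b⟩ := Φ.exists_layer (z := z) fun e => h1 (by simp [e])
  have hkl : k ≤ l := by
    by_contra hc
    exact h1 (Φ.mono (by omega) b)
  have hu' := Φ.mono hkl hu
  obtain ⟨s, hs, e⟩ := Φ.to_layer a b
  obtain ⟨t, ht, e'⟩ := Φ.to_layer (z := z + u) (k := l)
    (fun h => a (by simpa using (Φ.U l).sub_mem h hu'))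
    ((Φ.U _).add_mem b (Φ.mono (by omega) hu'))
  exact ⟨t * s⁻¹, mul_mem ht (inv_mem hs), by rw [← e', ← e]; simp⟩

open Classical in
theorem ncard_eq {X : Set V} (hX : ∀ s ∈ S, ∀ x ∈ X, s x ∈ X) (h0 : (0 : V) ∉ X) :
    X.ncard = ∑ k ∈ (Finset.range (finrank F2 V)).filter (fun k => Φ.v k ∈ X), 2 ^ k := by
  have key : ∀ m ≤ finrank F2 V, (X ∩ Φ.U m).ncard =
      ∑ k ∈ (Finset.range m).filter (fun k => Φ.v k ∈ X), 2 ^ k := by
    intro m hm
    induction m with
    | zero =>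
      rw [Φ.U0]
      simp only [Finset.range_zero, Finset.filter_empty, Finset.sum_empty]
      rw [Set.ncard_eq_zero]
      ext x; simp only [Set.mem_inter_iff, Submodule.bot_coe, Set.mem_singleton_iff,
        Set.mem_empty_iff_false, iff_false, not_and]
      rintro h rfl; exact h0 h
    | succ m ih =>
      rw [Finset.range_add_one, Finset.filter_insert]
      have hl : ∀ z, z ∉ Φ.U m → z ∈ Φ.U (m + 1) → (z ∈ X ↔ Φ.v m ∈ X) := by
        intro z a b
        obtain ⟨s, hs, e⟩ := Φ.to_layer a b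
        exact ⟨fun h => by simpa [← e] using hX _ (inv_mem hs) _ h, fun h => e ▸ hX s hs _ h⟩
      split_ifs with hv
      · rw [Finset.sum_insert (by simp), ← ih (by omega)]
        have : X ∩ Φ.U (m + 1) = ((Φ.U (m + 1) : Set V) \ Φ.U m) ∪ (X ∩ Φ.U m) := by
          ext z
          constructor
          · rintro ⟨a, b⟩
            by_cases c : z ∈ Φ.U m
            · exact Or.inr ⟨a, c⟩
            · exact Or.inl ⟨b, c⟩
          · rintro (⟨a, b⟩ | ⟨a, b⟩)
            · exact ⟨(hl z b a).2 hv, a⟩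
            · exact ⟨a, Φ.mono (Nat.le_succ m) b⟩
        rw [this, Set.ncard_union_eq (Set.disjoint_left.2 fun z a b => a.2 b.2),
          Set.ncard_diff (Φ.mono (Nat.le_succ m)), card_sub, card_sub, Φ.finrank_U hm,
          Φ.finrank_U (by omega), pow_succ]
        omega
      · rw [← ih (by omega)]
        congr 1
        ext z
        constructor
        · rintro ⟨a, b⟩
          refine ⟨a, by_contra fun c => hv ((hl z c b).1 a)⟩
        · rintro ⟨a, b⟩
          exact ⟨a, Φ.mono (Nat.le_succ m) b⟩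
  have := key _ le_rfl
  rwa [Φ.U_top, Submodule.top_coe, Set.inter_univ] at this

theorem testBit {X : Set V} (hX : ∀ s ∈ S, ∀ x ∈ X, s x ∈ X) (h0 : (0 : V) ∉ X) {k : ℕ} :
    X.ncard.testBit k ↔ k < finrank F2 V ∧ Φ.v k ∈ X := by
  classical
  rw [Φ.ncard_eq hX h0, ← Nat.mem_bitIndices, ← List.mem_toFinset,
    Finset.toFinset_bitIndices_sum_two_pow]
  simp

theorem eq_diff {X : Set V} (hX : ∀ s ∈ S, ∀ x ∈ X, s x ∈ X) (h0 : (0 : V) ∉ X) {a b : ℕ}
    (hab : a ≤ b) (hc : X.ncard + 2 ^ a = 2 ^ b) :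
    (a < b → b ≤ finrank F2 V) ∧ X = (Φ.U b : Set V) \ Φ.U a := by
  classical
  have h1 : X.ncard = ∑ k ∈ Finset.Ico a b, 2 ^ k := by
    have e := Finset.sum_range_add_sum_Ico (fun k => 2 ^ k) hab
    rw [Nat.geomSum_eq le_rfl, Nat.geomSum_eq le_rfl] at e
    have : 0 < 2 ^ a := by positivity
    have : 0 < 2 ^ b := by positivity
    simp only [Nat.add_one_sub_one, Nat.div_one] at e
    omega
  have h2 := Finset.geomSum_injective le_rfl ((Φ.ncard_eq hX h0).symm.trans h1)
  have h3 : ∀ k, (k < finrank F2 V ∧ Φ.v k ∈ X) ↔ a ≤ k ∧ k < b := by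
    intro k
    have := Finset.ext_iff.1 h2 k
    simpa using this
  refine ⟨fun h => by have := (h3 (b - 1)).2 (by omega); omega, ?_⟩
  ext z
  by_cases hz : z = 0
  · subst hz; simp [h0]
  obtain ⟨k, hk, c, d⟩ := Φ.exists_layer hz
  obtain ⟨s, hs, e⟩ := Φ.to_layer c d
  have : z ∈ X ↔ Φ.v k ∈ X :=
    ⟨fun h => by simpa [← e] using hX _ (inv_mem hs) _ h, fun h => e ▸ hX s hs _ h⟩
  rw [this, Set.mem_diff, SetLike.mem_coe, SetLike.mem_coe]
  have h4 : ∀ l, z ∈ Φ.U l ↔ k < l := fun l =>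
    ⟨fun h => by by_contra hc; exact c (Φ.mono (by omega) h), fun h => Φ.mono h d⟩
  rw [h4, h4]
  have := h3 k
  simp only [hk, true_and] at this
  rw [this]; omega

theorem eq_U {W : Submodule F2 V} (hW : ∀ s ∈ S, ∀ x ∈ W, s x ∈ W) : W = Φ.U (finrank F2 W) := by
  have := (Φ.eq_diff (X := (W : Set V) \ {0}) (a := 0) (b := finrank F2 W)
    (fun s hs x hx => ⟨hW s hs x hx.1, by simpa using hx.2⟩) (by simp) (Nat.zero_le _)
    (by rw [← card_sub, pow_zero, Set.ncard_diff_singleton_add_one W.zero_mem])).2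
  ext z
  by_cases hz : z = 0
  · simp [hz]
  have := Set.ext_iff.1 this z
  simpa [hz, Φ.U0] using this

end Flag

end CF.AFl
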