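import Cfsg.Agent.AFl.B

/-! Linear algebra over `F₂`: counting lemmas and the spread lemma. -/

set_option autoImplicit false
set_option linter.style.haveILetI false

namespace CF.AFl

open Module

variable {V : Type*} [AddCommGroup V] [Module F2 V] [Finite V]

theorem dcount {α β : Type*} [Finite α] [Finite β] (A : Set α) (B : Set β) (r : α → β → Prop)
    (m n : ℕ) (h1 : ∀ a ∈ A, {b | b ∈ B ∧ r a b}.ncard = m)
    (h2 : ∀ b ∈ B, {a | a ∈ A ∧ r a b}.ncard = n) : A.ncard * m = B.ncard * n := by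
  classical
  rw [Set.ncard_eq_toFinset_card A, Set.ncard_eq_toFinset_card B]
  refine Finset.card_mul_eq_card_mul r (fun a ha => ?_) (fun b hb => ?_)
  · rw [← h1 a (by simpa using ha), ← Set.ncard_coe_finset]
    congr 1; ext; simp
  · rw [← h2 b (by simpa using hb), ← Set.ncard_coe_finset]
    congr 1; ext; simp

theorem no_friend' {α : Type*} [Finite α] (A : Set α) (hc : A.ncard = 31)
    (r : α → α → Prop) (hs : ∀ a b, r a b → r b a) (hi : ∀ a, ¬ r a a)
    (hd : ∀ a ∈ A, {b | b ∈ A ∧ r a b}.ncard = 6)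
    (h1 : ∀ a ∈ A, ∀ b ∈ A, a ≠ b → {c | c ∈ A ∧ r a c ∧ r b c}.ncard = 1) : False := by
  classical
  letI := Fintype.ofFinite A
  have key : ∀ p : α → Prop, (Finset.univ.filter fun c : A => p c).card = {c | c ∈ A ∧ p c}.ncard := by
    intro p
    rw [← Set.ncard_coe_finset, ← Set.ncard_image_of_injective _ Subtype.val_injective]
    congr 1; ext; simp [and_comm]
  refine no_friend (α := A) (by rw [← Nat.card_eq_fintype_card, Nat.card_coe_set_eq, hc])
    (fun a b => r a b) (fun _ _ => hs _ _) (fun _ => hi _) (fun a => ?_) (fun a b hab => ?_)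
  · rw [← hd a a.2, ← key]
  · rw [← h1 a a.2 b b.2 (fun e => hab (Subtype.ext e)), ← key (fun c => r a c ∧ r b c)]
    congr

theorem finrank_comap_subtype (L K : Submodule F2 V) :
    finrank F2 (K.comap L.subtype) = finrank F2 ↥(L ⊓ K) := by
  rw [← Submodule.finrank_map_subtype_eq, Submodule.map_comap_subtype]

theorem finrank_map_add {W : Type*} [AddCommGroup W] [Module F2 W] (f : V →ₗ[F2] W)
    (L : Submodule F2 V) :
    finrank F2 (L.map f) + finrank F2 ↥(L ⊓ LinearMap.ker f) = finrank F2 L := by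
  rw [← (f.domRestrict L).finrank_range_add_finrank_ker, LinearMap.range_domRestrict,
    LinearMap.ker_domRestrict, finrank_comap_subtype]

theorem finrank_le_inf_ker (L : Submodule F2 V) (φ : Dual F2 V) :
    finrank F2 L ≤ finrank F2 ↥(L ⊓ LinearMap.ker φ) + 1 := by
  have := finrank_map_add φ L
  have := (Submodule.finrank_le (L.map φ)).trans (finrank_self F2).le
  omega

theorem finrank_inf_ker {L : Submodule F2 V} {φ : Dual F2 V} {x : V} (hx : x ∈ L) (h : φ x = 1) :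
    finrank F2 ↥(L ⊓ LinearMap.ker φ) + 1 = finrank F2 L := by
  have := finrank_le_inf_ker L φ
  have : finrank F2 ↥(L ⊓ LinearMap.ker φ) < finrank F2 L :=
    Submodule.finrank_lt_finrank_of_lt (lt_of_le_of_ne inf_le_left fun e => by
      have : x ∈ L ⊓ LinearMap.ker φ := e.symm ▸ hx
      simp [h] at this)
  omega

theorem exists_ker {U : Submodule F2 V} (h : finrank F2 U + 1 = finrank F2 V) :
    ∃ φ : Dual F2 V, φ ≠ 0 ∧ ∀ z, z ∈ U ↔ φ z = 0 := by
  obtain ⟨y, hy⟩ := exists_notMem (U := U) (by omega)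
  obtain ⟨φ, h1, h2⟩ := exists_dual hy
  refine ⟨φ, fun e => by simp [e] at h1, fun z => ⟨h2 z, fun hz => ?_⟩⟩
  have : U ⊔ Submodule.span F2 {y} = ⊤ :=
    Submodule.eq_top_of_finrank_eq (by rw [Submodule.finrank_sup_span_singleton hy, h])
  rcases mem_sup1.1 (this.symm ▸ Submodule.mem_top (x := z)) with a | a
  · exact a
  · have := h2 _ a
    simp [hz, h1] at this

theorem card_eq_one {L : Submodule F2 V} {φ : Dual F2 V} {x : V} (hx : x ∈ L) (h : φ x = 1) :
    {w | φ w = 1 ∧ w ∈ L}.ncard = 2 ^ (finrank F2 L - 1) := by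
  have : {w | φ w = 1 ∧ w ∈ L} = (L : Set V) \ (L ⊓ LinearMap.ker φ : Submodule F2 V) := by
    ext w
    simp only [Set.mem_setOf_eq, Set.mem_diff, SetLike.mem_coe, Submodule.mem_inf, LinearMap.mem_ker,
      ← f2_ne_zero]
    tauto
  rw [this, Set.ncard_diff (SetLike.coe_subset_coe.2 inf_le_left), card_sub, card_sub,
    ← finrank_inf_ker hx h, pow_succ]
  simp; omega

theorem ncard_diff2 {L : Submodule F2 V} {x : V} (hx : x ∈ L) (h0 : x ≠ 0) :
    {z | z ∈ L ∧ z ≠ 0 ∧ z ≠ x}.ncard + 2 = 2 ^ finrank F2 L := by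
  have : {z | z ∈ L ∧ z ≠ 0 ∧ z ≠ x} = (L : Set V) \ {0, x} := by ext; simp
  have h2 := Set.ncard_diff_add_ncard_of_subset (s := {0, x}) (t := (L : Set V)) (by
    rintro z (rfl | rfl)
    · exact L.zero_mem
    · exact hx)
  rw [this, ← card_sub, ← h2, Set.ncard_pair h0.symm]

theorem finrank_sq_zero {L : Submodule F2 V} {e : V →ₗ[F2] V} (h1 : ∀ p ∈ L, e p ∈ L)
    (h2 : ∀ p ∈ L, e (e p) = 0) : finrank F2 L ≤ 2 * finrank F2 ↥(L ⊓ LinearMap.ker e) := by
  have := finrank_map_add e L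
  have : finrank F2 (L.map e) ≤ finrank F2 ↥(L ⊓ LinearMap.ker e) :=
    Submodule.finrank_mono (by rintro _ ⟨p, hp, rfl⟩; exact ⟨h1 p hp, h2 p hp⟩)
  omega

theorem exists_mem_notMem {L K : Submodule F2 V} (h : finrank F2 K < finrank F2 L) :
    ∃ p ∈ L, p ∉ K := by
  by_contra hc
  push Not at hc
  have := Submodule.finrank_mono (show L ≤ K from hc)
  omega

/-- a spread on a subspace `P` of dimension `2 d` -/
structure Spr (A : V → Submodule F2 V) (P : Submodule F2 V) (d : ℕ) : Prop where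
  mem : ∀ w, w ∈ A w
  eqA : ∀ w, w ≠ 0 → ∀ w' ∈ A w, w' ≠ 0 → A w' = A w
  rk : ∀ w, w ≠ 0 → finrank F2 (A w) = d
  hP : finrank F2 P = 2 * d
  le : ∀ w ∈ P, w ≠ 0 → A w ≤ P

namespace Spr
variable {A : V → Submodule F2 V} {P : Submodule F2 V} {d : ℕ} (h : Spr A P d)
include h

omit [Finite V] in
theorem disj {a w : V} (ha : a ≠ 0) (hw : w ∉ A a) {z : V} (h1 : z ∈ A a) (h2 : z ∈ A w) : z = 0 := by
  by_contra hz
  have hw0 : w ≠ 0 := fun e => hw (by simp [e])
  exact hw (by rw [← h.eqA a ha z h1 hz, h.eqA w hw0 z h2 hz]; exact h.mem w)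

theorem sup_eq {a w : V} (ha : a ≠ 0) (haP : a ∈ P) (hw : w ∉ A a) (hwP : w ∈ P) :
    A a ⊔ A w = P := by
  have hw0 : w ≠ 0 := fun e => hw (by simp [e])
  refine Submodule.eq_of_le_of_finrank_eq (sup_le (h.le a haP ha) (h.le w hwP hw0)) ?_
  have := Submodule.finrank_sup_add_finrank_inf_eq (A a) (A w)
  rw [show A a ⊓ A w = ⊥ from eq_bot_iff.2 fun z hz => h.disj ha hw hz.1 hz.2, finrank_bot,
    h.rk a ha, h.rk w hw0] at this
  rw [h.hP]; omega

omit [Finite V] in
theorem fix {n : GL2 V} (hn : ∀ w, w ≠ 0 → A (n w) = (A w).map (n : V →ₗ[F2] V)) {w b : V} (hw : w ≠ 0)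
    (hb : b ∈ A w) (hb0 : b ≠ 0) (e : n b = b) {z : V} (hz : z ∈ A w) : n z ∈ A w := by
  have := hn b hb0
  rw [e, h.eqA w hw b hb hb0] at this
  rw [this]; exact ⟨z, hz, rfl⟩

theorem triv {n : GL2 V} (hn : ∀ w, w ≠ 0 → A (n w) = (A w).map (n : V →ₗ[F2] V)) {a0 : V} (ha : a0 ≠ 0)
    (haP : a0 ∈ P) (h0 : ∀ a ∈ A a0, n a = a) {w : V} (hwP : w ∈ P) (hw : w ∉ A a0) (e : n w = w) :
    ∀ p ∈ P, n p = p := by
  have key : ∀ p ∈ P, p ∉ A a0 → n p + p ∈ A p := by
    intro p hp hp'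
    have hp0 : p ≠ 0 := fun e => hp' (by simp [e])
    obtain ⟨a, ha', b, hb, rfl⟩ := Submodule.mem_sup.1 ((h.sup_eq ha haP hp' hp).symm ▸ hwP)
    have hb0 : b ≠ 0 := fun e => hw (by simpa [e] using ha')
    rw [map_add, h0 a ha', add_left_cancel_iff] at e
    exact (A p).add_mem (h.fix hn hp0 hb hb0 e (h.mem p)) (h.mem p)
  intro p hp
  by_cases hp' : p ∈ A a0
  · exact h0 p hp'
  have hp0 : p ≠ 0 := fun e => hp' (by simp [e])
  have h1 := key p hp hp'
  have h2 := key (p + a0) (P.add_mem hp haP) fun c => hp' (by simpa using (A a0).sub_mem c (h.mem a0))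
  rw [map_add, h0 a0 (h.mem a0), show n p + a0 + (p + a0) = n p + p + (a0 + a0) by abel, add_self,
    add_zero] at h2
  refine add_eq_zero.1 (h.disj hp0 (w := p + a0) (fun c => ?_) h1 h2)
  have : a0 ∈ A p := by simpa using (A p).sub_mem c (h.mem p)
  exact hp' (by rw [h.eqA p hp0 a0 this ha]; exact h.mem p)

theorem no_tv (hd : 3 ≤ d) {s : GL2 V} (hs : ∀ w, w ≠ 0 → A (s w) = (A w).map (s : V →ₗ[F2] V))
    (hsP : ∀ p ∈ P, s p ∈ P) {k : ℕ} (hk : s ^ 2 ^ k = 1) {a0 x0 a1 : V} (ha : a0 ≠ 0) (haP : a0 ∈ P)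
    {φ : Dual F2 V} (hx : x0 ∈ A a0) (hx0 : x0 ≠ 0) (hφ : φ x0 = 0) (ha1 : a1 ∈ A a0) (h1 : φ a1 = 1)
    (hsa : ∀ a ∈ A a0, s a = a + φ a • x0) : False := by
  classical
  have hpow : ∀ j, ∀ w, w ≠ 0 → A ((s ^ j) w) = (A w).map ((s ^ j : GL2 V) : V →ₗ[F2] V) := by
    intro j
    induction j with
    | zero => intro w _; simp
    | succ j ih =>
      intro w hw
      rw [pow_succ', LinearEquiv.mul_apply, hs _ (by simpa using hw), ih w hw, ← Submodule.map_comp]
      rfl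
  have hpP : ∀ j, ∀ p ∈ P, (s ^ j) p ∈ P := by
    intro j
    induction j with
    | zero => simp
    | succ j ih => intro p hp; rw [pow_succ', LinearEquiv.mul_apply]; exact hsP _ (ih p hp)
  have hs2 : ∀ a ∈ A a0, s (s a) = a := by
    intro a haa
    rw [hsa a haa, map_add, map_smul, hsa a haa, hsa x0 hx, hφ, zero_smul, add_zero, add_cancel_add]
  have hev : ∀ (L : Submodule F2 V), (∀ a ∈ L, s (s a) = a) → ∀ j, ∀ a ∈ L, (s ^ (2 * j)) a = a := by
    intro L hL j
    induction j with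
    | zero => simp
    | succ j ih =>
      intro a haa
      rw [Nat.mul_succ, pow_add, pow_two, LinearEquiv.mul_apply, LinearEquiv.mul_apply, hL a haa,
        ih a haa]
  let e : V →ₗ[F2] V := (s : V →ₗ[F2] V) + LinearMap.id
  have he : ∀ p, e p = s p + p := fun _ => rfl
  have hee : ∀ p, e (e p) = s (s p) + p := fun p => by
    rw [he, he, map_add, add_assoc, add_add_cancel]
  have hea : ∀ a ∈ A a0, e a = φ a • x0 := fun a haa => by
    rw [he, hsa a haa, add_right_comm, add_self, zero_add]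
  have hP2 : ∀ p ∈ P, s (s p) = p := by
    by_contra hc
    have hex : ∃ j, ∀ p ∈ P, (s ^ 2 ^ j) p = p := ⟨k, by simp [hk]⟩
    have hj := Nat.find_spec hex
    have h0 : Nat.find hex ≠ 0 := fun e => by
      rw [e] at hj
      exact hc fun p hp => by have := hj p hp; simp at this; rw [this, this]
    obtain ⟨j, ej⟩ := Nat.exists_eq_succ_of_ne_zero h0
    have hj' := Nat.find_min hex (show j < Nat.find hex by omega)
    have h0' : j ≠ 0 := fun e => by
      rw [ej, e] at hj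
      exact hc fun p hp => by simpa [pow_two] using hj p hp
    obtain ⟨i, rfl⟩ := Nat.exists_eq_succ_of_ne_zero h0'
    rw [ej] at hj
    set t := s ^ 2 ^ (i + 1) with ht
    have ht2 : ∀ p ∈ P, t (t p) = p := fun p hp => by
      have := hj p hp
      rwa [Nat.succ_eq_add_one, pow_succ, pow_mul, pow_two, LinearEquiv.mul_apply] at this
    have ht0 : ∀ a ∈ A a0, t a = a := by rw [ht, pow_succ']; exact hev _ hs2 _
    have hC : ∀ p ∈ P, t p = p → p ∈ A a0 := fun p hp e => by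
      by_contra c
      exact hj' (h.triv (hpow _) ha haP ht0 hp c e)
    let et : V →ₗ[F2] V := (t : V →ₗ[F2] V) + LinearMap.id
    have het : ∀ p, et p = t p + p := fun _ => rfl
    have hst : ∀ p, t (s p) = s (t p) := fun p => by
      rw [← LinearEquiv.mul_apply, ← LinearEquiv.mul_apply, ht, ← pow_succ, ← pow_succ']
    obtain ⟨p, ⟨⟨hp, p1⟩, p2⟩, hp'⟩ := exists_mem_notMem
      (L := P ⊓ LinearMap.ker (φ ∘ₗ et) ⊓ LinearMap.ker (φ ∘ₗ e)) (K := A a0) (by
        have := finrank_le_inf_ker P (φ ∘ₗ et)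
        have := finrank_le_inf_ker (P ⊓ LinearMap.ker (φ ∘ₗ et)) (φ ∘ₗ e)
        have := h.hP
        have := h.rk a0 ha
        omega)
    have q1 : et p ∈ A a0 := hC _ (P.add_mem (hpP _ p hp) hp) (by
      rw [het, map_add, ht2 p hp, add_comm])
    have q2 : e p ∈ A a0 := hC _ (P.add_mem (hsP p hp) hp) (by
      have := hea _ q1
      rw [show φ (et p) = 0 from p1, zero_smul, he, het, map_add, ← hst] at this
      rw [he, map_add, ← add_eq_zero, ← this]; abel)
    have q3 := hea _ q2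
    rw [show φ (e p) = 0 from p2, zero_smul, hee, add_eq_zero] at q3
    exact hc fun q hq => by
      simpa [pow_two] using h.triv (hpow 2) ha haP (by simpa [pow_two] using hs2) hp hp'
        (by simpa [pow_two] using q3) q hq
  have hK := finrank_sq_zero (L := P) (e := e) (fun p hp => P.add_mem (hsP p hp) hp)
    (fun p hp => by rw [hee, hP2 p hp, add_self])
  have hK0 := finrank_inf_ker ha1 h1
  have hle0 : P ⊓ LinearMap.ker e ⊓ A a0 ≤ A a0 ⊓ LinearMap.ker φ := by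
    rintro z ⟨⟨-, a⟩, b⟩
    refine ⟨b, ?_⟩
    have := hea z b
    rw [show e z = 0 from a, eq_comm, smul_eq_zero] at this
    exact this.resolve_right hx0
  obtain ⟨w, ⟨hwP, hwe⟩, hw⟩ := exists_mem_notMem (L := P ⊓ LinearMap.ker e)
    (K := A a0 ⊓ LinearMap.ker φ) (by have := h.hP; have := h.rk a0 ha; omega)
  have hw' : w ∉ A a0 := fun c => hw (hle0 ⟨⟨hwP, hwe⟩, c⟩)
  have hw0 : w ≠ 0 := fun e => hw' (by simp [e])
  have hsw : s w = w := add_eq_zero.1 hwe
  have hK' := finrank_sq_zero (L := A w) (e := e)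
    (fun p hp => (A w).add_mem (h.fix hs hw0 (h.mem w) hw0 hsw hp) hp)
    (fun p hp => by rw [hee, hP2 p (h.le w hwP hw0 hp), add_self])
  have hK1 : d + 1 ≤ finrank F2 ↥(P ⊓ LinearMap.ker e) := by
    have := Submodule.finrank_sup_add_finrank_inf_eq (A a0 ⊓ LinearMap.ker φ) (A w ⊓ LinearMap.ker e)
    rw [show (A a0 ⊓ LinearMap.ker φ) ⊓ (A w ⊓ LinearMap.ker e) = ⊥ from
      eq_bot_iff.2 fun z hz => h.disj ha hw' hz.1.1 hz.2.1, finrank_bot] at this
    have h3 : (A a0 ⊓ LinearMap.ker φ) ⊔ (A w ⊓ LinearMap.ker e) ≤ P ⊓ LinearMap.ker e := by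
      refine sup_le (fun z hz => ⟨h.le a0 haP ha hz.1, ?_⟩)
        fun z hz => ⟨h.le w hwP hw0 hz.1, hz.2⟩
      show e z = 0
      rw [hea z hz.1, show φ z = 0 from hz.2, zero_smul]
    have := Submodule.finrank_mono h3
    have := h.rk a0 ha
    have := h.rk w hw0
    omega
  have hp' : a1 + w ∉ A a0 := fun c => hw' (by simpa using (A a0).sub_mem c ha1)
  have hpP' : a1 + w ∈ P := P.add_mem (h.le a0 haP ha ha1) hwP
  have hp0 : a1 + w ≠ 0 := fun e => hp' (by simp [e])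
  obtain ⟨b, ⟨⟨-, b1⟩, b2⟩, b3⟩ := exists_mem_notMem (L := P ⊓ LinearMap.ker e ⊓ A (a1 + w)) (K := ⊥) (by
    have := Submodule.finrank_sup_add_finrank_inf_eq (P ⊓ LinearMap.ker e) (A (a1 + w))
    have := Submodule.finrank_mono (show (P ⊓ LinearMap.ker e) ⊔ (A (a1 + w)) ≤ P from
      sup_le inf_le_left (h.le _ hpP' hp0))
    have := h.rk _ hp0
    have := h.hP
    rw [finrank_bot]; omega)
  have := (A (a1 + w)).add_mem (h.fix hs hp0 b2 (by simpa using b3) (add_eq_zero.1 b1) (h.mem _))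
    (h.mem _)
  rw [← he, map_add, hea a1 ha1, h1, one_smul, show e w = 0 from hwe, add_zero] at this
  exact hx0 (h.disj ha hp' hx this)

end Spr

theorem spread (A : V → Submodule F2 V) {d : ℕ} (hd : 3 ≤ d) (mem : ∀ w, w ∈ A w)
    (eqA : ∀ w, w ≠ 0 → ∀ w' ∈ A w, w' ≠ 0 → A w' = A w) (rk : ∀ w, w ≠ 0 → finrank F2 (A w) = d)
    (geo : ∀ a v w, a ≠ 0 → v ∉ A a → w ∈ A a ⊔ A v → w ≠ 0 → A w ≤ A a ⊔ A v)
    {s : GL2 V} (hs : ∀ w, w ≠ 0 → A (s w) = (A w).map (s : V →ₗ[F2] V)) {a0 x0 a1 : V} (ha : a0 ≠ 0)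
    (hne : A a0 ≠ ⊤)
    {φ : Dual F2 V} (hx : x0 ∈ A a0) (hx0 : x0 ≠ 0) (hφ : φ x0 = 0) (ha1 : a1 ∈ A a0) (h1 : φ a1 = 1)
    (hsa : ∀ a ∈ A a0, s a = a + φ a • x0) : False := by
  obtain ⟨k, m, hm, e⟩ := Nat.exists_eq_two_pow_mul_odd (n := orderOf s) (orderOf_pos s).ne'
  obtain ⟨j, rfl⟩ := hm
  have hpow : ∀ j, ∀ w, w ≠ 0 → A ((s ^ j) w) = (A w).map ((s ^ j : GL2 V) : V →ₗ[F2] V) := by
    intro j
    induction j with
    | zero => intro w _; simp
    | succ j ih =>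
      intro w hw
      rw [pow_succ', LinearEquiv.mul_apply, hs _ (by simpa using hw), ih w hw, ← Submodule.map_comp]
      rfl
  have hs2 : ∀ a ∈ A a0, s (s a) = a := by
    intro a haa
    rw [hsa a haa, map_add, map_smul, hsa a haa, hsa x0 hx, hφ, zero_smul, add_zero, add_cancel_add]
  have hev : ∀ j, ∀ a ∈ A a0, (s ^ (2 * j + 1)) a = s a := by
    intro j
    induction j with
    | zero => simp
    | succ j ih =>
      intro a haa
      rw [show 2 * (j + 1) + 1 = 2 * j + 1 + 2 by ring, pow_add, pow_two, LinearEquiv.mul_apply,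
        LinearEquiv.mul_apply, hs2 a haa, ih a haa]
  set t := s ^ (2 * j + 1) with ht
  have hk : t ^ 2 ^ k = 1 := by rw [ht, ← pow_mul, mul_comm, ← e, pow_orderOf_eq_one]
  have hta : ∀ a ∈ A a0, t a ∈ A a0 := fun a haa => by
    rw [hev j a haa, hsa a haa]; exact (A a0).add_mem haa ((A a0).smul_mem _ hx)
  have hpg : IsPGroup 2 (Subgroup.zpowers t) := by
    rintro ⟨_, i, rfl⟩
    exact ⟨k, Subtype.ext (by
      show (t ^ i) ^ 2 ^ k = 1
      rw [← zpow_natCast, ← zpow_mul, mul_comm, zpow_mul, zpow_natCast, hk, one_zpow])⟩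
  obtain ⟨v, hv, hv'⟩ := exists_fixed_quot hpg (U := A a0) (by
    intro g hg
    obtain ⟨i, rfl⟩ := (mem_powers_iff_mem_zpowers (x := t)).2 hg
    induction i with
    | zero => simp
    | succ i ih =>
      intro u hu
      simp only [pow_succ', LinearEquiv.mul_apply]
      exact hta _ (ih (Subgroup.npow_mem_zpowers t i) u hu)) hne
  have hv0 : v ≠ 0 := fun e => hv (by simp [e])
  have hS : Spr A (A a0 ⊔ A v) d := by
    refine ⟨mem, eqA, rk, ?_, fun w hw hw0 => geo _ _ _ ha hv hw hw0⟩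
    have := Submodule.finrank_sup_add_finrank_inf_eq (A a0) (A v)
    rw [show A a0 ⊓ A v = ⊥ from eq_bot_iff.2 fun z hz => by
      by_contra hz0
      exact hv (by rw [← eqA a0 ha z hz.1 hz0, eqA v hv0 z hz.2 hz0]; exact mem v), finrank_bot,
      rk a0 ha, rk v hv0] at this
    omega
  refine hS.no_tv hd (hpow _) (fun p hp => ?_) hk ha (Submodule.mem_sup_left (mem a0)) hx hx0 hφ ha1 h1
    fun a haa => by rw [hev j a haa, hsa a haa]
  obtain ⟨a, ha', b, hb, rfl⟩ := Submodule.mem_sup.1 hp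
  rw [map_add]
  refine Submodule.add_mem _ (Submodule.mem_sup_left (hta a ha')) ?_
  refine geo a0 v (t v) ha hv ?_ (by simpa using hv0) (by rw [hpow _ v hv0]; exact ⟨b, hb, rfl⟩)
  rw [← add_cancel_add (t v) v]
  exact Submodule.add_mem _ (Submodule.mem_sup_left (hv' t (Subgroup.mem_zpowers t)))
    (Submodule.mem_sup_right (mem v))

end CF.AFl
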