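import Cfsg.Agent.AFl.C

/-! Special planes of a doubly transitive linear group over `F₂`. -/

set_option autoImplicit false
set_option linter.style.haveILetI false

namespace CF.AFl

open Module

variable {V : Type*} [AddCommGroup V] [Module F2 V] [Finite V]

structure Ctx (G : Subgroup (GL2 V)) where
  S : Subgroup (GL2 V)
  le : S ≤ G
  Φ : Flag S
  tr : Tr2 G
  hn : 3 ≤ finrank F2 V

theorem exists_ctx {G : Subgroup (GL2 V)} (h : Tr2 G) (hn : 3 ≤ finrank F2 V) : Nonempty (Ctx G) := by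
  obtain ⟨S⟩ := (inferInstance : Nonempty (Sylow 2 G))
  obtain ⟨Φ⟩ := exists_flag (S.isPGroup'.map G.subtype) (h.lay (by omega) S)
  exact ⟨⟨_, Subgroup.map_subtype_le _, Φ, h, hn⟩⟩

/-- conjugacy of triples -/
def R3 (G : Subgroup (GL2 V)) (x y z x' y' z' : V) : Prop :=
  ∃ g ∈ G, g x = x' ∧ g y = y' ∧ g z = z'

omit [Finite V] in
theorem R3.trans {G : Subgroup (GL2 V)} {x y z x' y' z' x'' y'' z'' : V} (h : R3 G x y z x' y' z')
    (h' : R3 G x' y' z' x'' y'' z'') : R3 G x y z x'' y'' z'' := by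
  obtain ⟨g, hg, a, b, c⟩ := h
  obtain ⟨g', hg', a', b', c'⟩ := h'
  exact ⟨g' * g, mul_mem hg' hg, by simp [*], by simp [*], by simp [*]⟩

omit [Finite V] in
theorem R3.symm {G : Subgroup (GL2 V)} {x y z x' y' z' : V} (h : R3 G x y z x' y' z') :
    R3 G x' y' z' x y z := by
  obtain ⟨g, hg, rfl, rfl, rfl⟩ := h
  exact ⟨g⁻¹, inv_mem hg, by simp, by simp, by simp⟩

omit [Finite V] in
theorem R3.p12 {G : Subgroup (GL2 V)} {x y z x' y' z' : V} (h : R3 G x y z x' y' z') :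
    R3 G y x z y' x' z' := by
  obtain ⟨g, hg, a, b, c⟩ := h; exact ⟨g, hg, b, a, c⟩

omit [Finite V] in
theorem R3.p23 {G : Subgroup (GL2 V)} {x y z x' y' z' : V} (h : R3 G x y z x' y' z') :
    R3 G x z y x' z' y' := by
  obtain ⟨g, hg, a, b, c⟩ := h; exact ⟨g, hg, a, c, b⟩

namespace Ctx
variable {G : Subgroup (GL2 V)} (C : Ctx G)

abbrev v (k : ℕ) : V := C.Φ.v k
abbrev U (k : ℕ) : Submodule F2 V := C.Φ.U k

omit [Finite V] in
theorem mem_U1 {z : V} : z ∈ C.U 1 ↔ z = 0 ∨ z = C.v 0 := by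
  rw [U, C.Φ.succ, C.Φ.U0, bot_sup_eq, mem_span1]

omit [Finite V] in
theorem mem_U2 {z : V} :
    z ∈ C.U 2 ↔ z = 0 ∨ z = C.v 0 ∨ z = C.v 1 ∨ z = C.v 0 + C.v 1 := by
  rw [U, C.Φ.succ, mem_sup1, C.mem_U1, C.mem_U1, add_eq_zero, ← add_left_inj (C.v 1) (b := z + C.v 1),
    add_cancel_add]
  tauto

theorem i2 : I2 (C.v 0) (C.v 1) := by
  have h0 := C.Φ.nm (k := 0) (by have := C.hn; omega)
  have h1 := C.Φ.nm (k := 1) (by have := C.hn; omega)
  rw [C.Φ.U0] at h0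
  rw [C.mem_U1, not_or] at h1
  exact ⟨by simpa using h0, h1.1, Ne.symm h1.2⟩

theorem i3 {k : ℕ} (h2 : 2 ≤ k) (hk : k < finrank F2 V) : I3 (C.v 0) (C.v 1) (C.v k) := by
  rw [i3_iff C.i2, ← C.mem_U2, C.Φ.v_mem_iff hk]; omega

omit [Finite V] in
theorem s0 {s : GL2 V} (hs : s ∈ C.S) : s (C.v 0) = C.v 0 := by
  have := C.Φ.mov 0 s hs
  rwa [C.Φ.U0, Submodule.mem_bot, add_eq_zero] at this

omit [Finite V] in
theorem s1 {s : GL2 V} (hs : s ∈ C.S) : s (C.v 1) = C.v 1 ∨ s (C.v 1) = C.v 0 + C.v 1 := by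
  rcases C.mem_U1.1 (C.Φ.mov 1 s hs) with h | h
  · exact Or.inl (add_eq_zero.1 h)
  · exact Or.inr (by rw [← h, add_cancel_add])

include C in
theorem mv {x y z : V} (h : I3 x y z) : R3 G x y z x y (z + x) ∨ R3 G x y z x (x + y) (z + x) := by
  obtain ⟨g, hg, rfl, rfl⟩ := C.tr _ _ _ _ C.i2 h.i2
  obtain ⟨z, rfl⟩ := g.surjective z
  rw [i3_map_iff, i3_iff C.i2, ← C.mem_U2] at h
  obtain ⟨s, hs, e⟩ := C.Φ.move h (C.Φ.v_mem (show 0 < 2 by omega))
  have hm := mul_mem (mul_mem hg (C.le hs)) (inv_mem hg)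
  rcases C.s1 hs with h1 | h1
  · exact Or.inl ⟨_, hm, by simp [C.s0 hs], by simp [h1], by simp [e]⟩
  · exact Or.inr ⟨_, hm, by simp [C.s0 hs], by simp [h1], by simp [e]⟩

include C in
theorem tv {x y z : V} (h : I3 x y z) : R3 G x y z x y (z + x) := by
  rcases C.mv h with a | a
  · exact a
  have h' : I3 x y (z + y) := h.p12.add13.p12
  rcases C.mv h' with ⟨g, hg, b1, b2, b3⟩ | ⟨g, hg, b1, b2, b3⟩
  · refine ⟨g, hg, b1, b2, ?_⟩
    rw [map_add, b2, add_right_comm, add_left_inj] at b3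
    exact b3
  · rw [map_add, b2, add_assoc z, add_comm y, add_left_inj] at b3
    obtain ⟨k, hk, a1, a2, a3⟩ := a
    exact ⟨g * k, mul_mem hg hk, by simp [a1, b1], by simp [a2, b1, b2, add_add_cancel],
      by simp [a3, b1, b3]⟩

include C in
theorem sw12 {x y z : V} (h : I3 x y z) : R3 G x y z y x z := by
  have h1 : I3 (x + y) y z := h.p12.p23.add13.p23.p12
  have h2 : I3 (x + y) x z := by
    have := h1.p23.add13.p23
    rwa [add_comm x y, add_add_cancel, add_comm y x] at this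
  have a1 := (C.tv h.p12.p23).p23.p12
  have a2 := (C.tv h1.p23).p23
  have a3 := (C.tv h2.p12.p23).p23.p12
  rw [show y + (x + y) = x by rw [add_comm x y, add_add_cancel]] at a2
  rw [show x + y + x = y by rw [add_right_comm, add_self, zero_add]] at a3
  exact (a1.trans a2).trans a3

include C in
theorem sw23 {x y z : V} (h : I3 x y z) : R3 G x y z x z y :=
  (C.sw12 h.p12.p23).p23.p12

/-- colour classes of triples -/
def Col (k : ℕ) (x y z : V) : Prop := I3 x y z ∧ R3 G (C.v 0) (C.v 1) (C.v k) x y z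

variable {C}

theorem Col.p12 {k : ℕ} {x y z : V} (h : C.Col k x y z) : C.Col k y x z :=
  ⟨h.1.p12, h.2.trans (C.sw12 h.1)⟩

theorem Col.p23 {k : ℕ} {x y z : V} (h : C.Col k x y z) : C.Col k x z y :=
  ⟨h.1.p23, h.2.trans (C.sw23 h.1)⟩

theorem Col.add13 {k : ℕ} {x y z : V} (h : C.Col k x y z) : C.Col k x y (z + x) :=
  ⟨h.1.add13, h.2.trans (C.tv h.1)⟩

theorem Col.add12 {k : ℕ} {x y z : V} (h : C.Col k x y z) : C.Col k x (x + y) z := by
  rw [add_comm]; exact h.p23.add13.p23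

theorem Col.add23 {k : ℕ} {x y z : V} (h : C.Col k x y z) : C.Col k x y (y + z) := by
  rw [add_comm]; exact h.p12.add13.p12

omit [Finite V] in
theorem Col.map {k : ℕ} {x y z : V} (h : C.Col k x y z) {g : GL2 V} (hg : g ∈ G) :
    C.Col k (g x) (g y) (g z) := ⟨h.1.map g, h.2.trans ⟨g, hg, rfl, rfl, rfl⟩⟩

omit [Finite V] in
theorem col_map_iff {k : ℕ} {x y z : V} {g : GL2 V} (hg : g ∈ G) :
    C.Col k (g x) (g y) (g z) ↔ C.Col k x y z :=
  ⟨fun h => by simpa using h.map (inv_mem hg), fun h => h.map hg⟩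

theorem col_base {k : ℕ} (h2 : 2 ≤ k) (hk : k < finrank F2 V) : C.Col k (C.v 0) (C.v 1) (C.v k) :=
  ⟨C.i3 h2 hk, 1, one_mem _, rfl, rfl, rfl⟩

theorem Col.smap {k : ℕ} {z : V} (h : C.Col k (C.v 0) (C.v 1) z) {s : GL2 V} (hs : s ∈ C.S) :
    C.Col k (C.v 0) (C.v 1) (s z) := by
  have := h.map (C.le hs)
  rw [C.s0 hs] at this
  rcases C.s1 hs with e | e
  · rwa [e] at this
  · have := this.add12
    rwa [e, add_add_cancel] at this

variable (C)

/-- dependent or special -/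
def T (x y z : V) : Prop := ¬ I3 x y z ∨ C.Col 2 x y z

variable {C}

theorem T.p12 {x y z : V} (h : C.T x y z) : C.T y x z :=
  h.imp (fun a b => a b.p12) Col.p12

theorem T.p23 {x y z : V} (h : C.T x y z) : C.T x z y :=
  h.imp (fun a b => a b.p23) Col.p23

theorem T.add13 {x y z : V} (h : C.T x y z) : C.T x y (z + x) :=
  h.imp (fun a b => a (by simpa [add_cancel_add] using b.add13)) Col.add13

omit [Finite V] in
theorem T.col {x y z : V} (h : C.T x y z) (h' : I3 x y z) : C.Col 2 x y z := h.resolve_left (not_not.2 h')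

omit [Finite V] in
theorem t_map_iff {x y z : V} {g : GL2 V} (hg : g ∈ G) : C.T (g x) (g y) (g z) ↔ C.T x y z := by
  simp only [T, i3_map_iff, col_map_iff hg]

theorem T.add {x y z z' : V} (h : C.T x y z) (h' : C.T x y z') : C.T x y (z + z') := by
  have key : ∀ {z z' : V}, ¬ I3 x y z → C.T x y z' → C.T x y (z' + z) := by
    intro z z' a b
    by_cases hxy : I2 x y
    swap
    · exact Or.inl fun c => hxy c.i2
    rw [i3_iff hxy, not_not] at a
    rcases a with rfl | rfl | rfl | rfl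
    · simpa using b
    · exact b.add13
    · exact b.p12.add13.p12
    · rw [← add_assoc]; exact b.add13.p12.add13.p12
  rcases h with h | h
  · rw [add_comm]; exact key h h'
  rcases h' with h' | h'
  · exact key h' (Or.inr h)
  by_cases h3 : I3 x y (z + z')
  swap
  · exact Or.inl h3
  obtain ⟨-, g, hg, rfl, rfl, rfl⟩ := h
  obtain ⟨w, rfl⟩ := g.surjective z'
  rw [← map_add, i3_map_iff, i3_iff C.i2, ← C.mem_U2] at h3
  rw [col_map_iff hg] at h'
  have h4 := h'.1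
  rw [i3_iff C.i2, ← C.mem_U2] at h4
  obtain ⟨s, hs, e⟩ := C.Φ.move (k := 3) (z := w) (by
    rw [C.Φ.succ, mem_sup1, add_comm]; tauto) (C.Φ.v_mem (show 2 < 3 by omega))
  rw [← map_add, t_map_iff hg, add_comm, ← e]
  exact Or.inr (h'.smap hs)

variable (C)

/-- union of the special planes on a line -/
def N (x y : V) : Submodule F2 V where
  carrier := {z | C.T x y z}
  add_mem' := T.add
  zero_mem' := Or.inl fun h => h.2.2.1 rfl
  smul_mem' a z h := by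
    rcases f2_cases a with rfl | rfl
    · rw [zero_smul]; exact Or.inl fun h => h.2.2.1 rfl
    · rwa [one_smul]

theorem mem_N {x y z : V} : z ∈ C.N x y ↔ C.T x y z := Iff.rfl

theorem N_comm (x y : V) : C.N x y = C.N y x := by
  ext z; exact ⟨T.p12, T.p12⟩

theorem mem_N_comm {x y z : V} : z ∈ C.N x y ↔ y ∈ C.N x z := ⟨T.p23, T.p23⟩

theorem left_mem (x y : V) : x ∈ C.N x y := Or.inl fun h => h.2.2.2.2.1 (add_self x)

theorem right_mem (x y : V) : y ∈ C.N x y := by rw [N_comm]; exact C.left_mem _ _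

theorem N_add (x y : V) : C.N x (x + y) = C.N x y := by
  ext z
  rw [mem_N_comm, C.mem_N_comm (z := z)]
  exact (C.N x z).add_mem_iff_right (C.left_mem _ _)

theorem N_map {g : GL2 V} (hg : g ∈ G) (x y : V) :
    C.N (g x) (g y) = (C.N x y).map (g : V →ₗ[F2] V) := by
  ext z
  obtain ⟨z, rfl⟩ := g.surjective z
  rw [mem_N, t_map_iff hg]
  simp [mem_N]

theorem map_mem_N {g : GL2 V} (hg : g ∈ G) {x y z : V} : g z ∈ C.N (g x) (g y) ↔ z ∈ C.N x y :=
  t_map_iff hg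

theorem inf3 {x y z w : V} (h : w ∈ C.N x y) (h' : w ∈ C.N x z) : w ∈ C.N x (y + z) := by
  rw [mem_N_comm] at *
  exact Submodule.add_mem _ h h'

theorem N_top {x y : V} (h : ¬ I2 x y) : C.N x y = ⊤ :=
  Submodule.eq_top_iff'.2 fun _ => Or.inl fun c => h c.i2

noncomputable def D : ℕ := finrank F2 (C.N (C.v 0) (C.v 1))

theorem finrank_N {x y : V} (h : I2 x y) : finrank F2 (C.N x y) = C.D := by
  obtain ⟨g, hg, rfl, rfl⟩ := C.tr _ _ _ _ C.i2 h
  rw [C.N_map hg, LinearEquiv.finrank_map_eq]; rfl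

theorem smem {s : GL2 V} (hs : s ∈ C.S) {y z : V} (h : z ∈ C.N (C.v 0) y) :
    s z ∈ C.N (C.v 0) (s y) := by
  rw [← C.s0 hs]; exact (C.map_mem_N (C.le hs)).2 h

theorem smem1 {s : GL2 V} (hs : s ∈ C.S) {z : V} (h : z ∈ C.N (C.v 0) (C.v 1)) :
    s z ∈ C.N (C.v 0) (C.v 1) := by
  have := C.smem hs h
  rcases C.s1 hs with e | e <;> rw [e] at this
  · exact this
  · rwa [N_add] at this

theorem N_base : C.N (C.v 0) (C.v 1) = C.U C.D := C.Φ.eq_U fun _ hs _ hx => C.smem1 hs hx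

theorem D_le : C.D ≤ finrank F2 V := Submodule.finrank_le _

theorem col2 : C.Col 2 (C.v 0) (C.v 1) (C.v 2) := col_base le_rfl C.hn

theorem three_le_D : 3 ≤ C.D := by
  have : C.v 2 ∈ C.N (C.v 0) (C.v 1) := Or.inr C.col2
  rw [N_base, C.Φ.v_mem_iff C.hn] at this
  exact this

noncomputable def ι : ℕ := finrank F2 ↥(C.N (C.v 0) (C.v 1) ⊓ C.N (C.v 0) (C.v 2))

theorem finrank_inf {k : ℕ} {x y z : V} (h : C.Col k x y z) :
    finrank F2 ↥(C.N x y ⊓ C.N x z) = finrank F2 ↥(C.N (C.v 0) (C.v 1) ⊓ C.N (C.v 0) (C.v k)) := by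
  obtain ⟨-, g, hg, rfl, rfl, rfl⟩ := h
  rw [C.N_map hg, C.N_map hg, ← Submodule.map_inf _ g.injective, LinearEquiv.finrank_map_eq]

theorem s2 {s : GL2 V} (hs : s ∈ C.S) :
    (C.N (C.v 0) (s (C.v 2)) = C.N (C.v 0) (C.v 2) ∧
      C.N (C.v 0) (s (C.v 1 + C.v 2)) = C.N (C.v 0) (C.v 1 + C.v 2)) ∨
    (C.N (C.v 0) (s (C.v 2)) = C.N (C.v 0) (C.v 1 + C.v 2) ∧
      C.N (C.v 0) (s (C.v 1 + C.v 2)) = C.N (C.v 0) (C.v 2)) := by
  have h2 := C.mem_U2.1 (C.Φ.mov 2 s hs)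
  have e : ∀ u, s (C.v 2) + C.v 2 = u → s (C.v 2) = u + C.v 2 := fun u h => by
    rw [← h, add_cancel_add]
  rw [map_add]
  rcases C.s1 hs with e1 | e1 <;> rcases h2 with e2 | e2 | e2 | e2 <;> rw [e1, e _ e2] <;>
    simp only [zero_add, add_assoc, add_add_cancel, N_add, add_left_comm (C.v 1) (C.v 0), true_or,
      or_true, and_self]

theorem iota : C.D = C.ι ∨ (C.D = C.ι + 1 ∧ C.D < finrank F2 V ∧
    ∀ w, w ∈ C.U (C.D + 1) ↔ w ∈ C.N (C.v 0) (C.v 1) ∨ w ∈ C.N (C.v 0) (C.v 2) ∨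
      w ∈ C.N (C.v 0) (C.v 1 + C.v 2)) := by
  set N1 := C.N (C.v 0) (C.v 1) with hN1
  set N2 := C.N (C.v 0) (C.v 2)
  set N3 := C.N (C.v 0) (C.v 1 + C.v 2)
  have i13 : ∀ w ∈ N1, w ∈ N3 → w ∈ N2 := fun w a b => by
    simpa [add_add_cancel] using C.inf3 a b
  have i23 : ∀ w ∈ N2, w ∈ N3 → w ∈ N1 := fun w a b => by
    simpa [add_cancel_add] using C.inf3 b a
  have i12 : ∀ w ∈ N1, w ∈ N2 → w ∈ N3 := fun w a b => C.inf3 a b
  have hI : ∀ s ∈ C.S, ∀ w ∈ N1 ⊓ N2, s w ∈ N1 ⊓ N2 := by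
    rintro s hs w ⟨a, b⟩
    refine ⟨C.smem1 hs a, ?_⟩
    have := C.smem hs b
    rcases C.s2 hs with e | e <;> rw [e.1] at this
    · exact this
    · exact i13 _ (C.smem1 hs a) this
  have eI : N1 ⊓ N2 = C.U C.ι := C.Φ.eq_U hI
  let X : Set V := {w | (w ∈ N1 ∨ w ∈ N2 ∨ w ∈ N3) ∧ w ∉ N1 ⊓ N2}
  have hX : ∀ s ∈ C.S, ∀ w ∈ X, s w ∈ X := by
    rintro s hs w ⟨a, b⟩
    refine ⟨?_, fun c => b (by simpa using hI _ (inv_mem hs) _ c)⟩
    rcases a with a | a | a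
    · exact Or.inl (C.smem1 hs a)
    · have := C.smem hs a
      rcases C.s2 hs with e | e <;> rw [e.1] at this <;> tauto
    · have := C.smem hs a
      rcases C.s2 hs with e | e <;> rw [e.2] at this <;> tauto
  have h0 : (0 : V) ∉ X := fun h => h.2 (Submodule.zero_mem _)
  have hc : X.ncard + 3 * 2 ^ C.ι = 3 * 2 ^ C.D := by
    have e : X = ((N1 : Set V) \ (N1 ⊓ N2 : Submodule F2 V)) ∪ (((N2 : Set V) \ (N1 ⊓ N2 : Submodule F2 V))
        ∪ ((N3 : Set V) \ (N1 ⊓ N2 : Submodule F2 V))) := by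
      ext w; simp only [X, Set.mem_setOf_eq, Set.mem_union, Set.mem_diff, SetLike.mem_coe]; tauto
    have c1 := Set.ncard_diff_add_ncard_of_subset (s := ((N1 ⊓ N2 : Submodule F2 V) : Set V))
      (t := N1) fun w h => h.1
    have c2 := Set.ncard_diff_add_ncard_of_subset (s := ((N1 ⊓ N2 : Submodule F2 V) : Set V))
      (t := N2) fun w h => h.2
    have c3 := Set.ncard_diff_add_ncard_of_subset (s := ((N1 ⊓ N2 : Submodule F2 V) : Set V))
      (t := N3) fun w h => i12 w h.1 h.2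
    rw [card_sub, card_sub] at c1 c2 c3
    rw [C.finrank_N C.col2.1.p23.i2] at c2
    rw [C.finrank_N C.col2.add23.1.p23.i2] at c3
    rw [e, Set.ncard_union_eq, Set.ncard_union_eq]
    · change _ + 2 ^ C.ι = 2 ^ C.D at c1 c2 c3
      omega
    · exact Set.disjoint_left.2 fun w a b => a.2 ⟨i23 w a.1 b.1, a.1⟩
    · exact Set.disjoint_left.2 fun w a b => by
        rcases b with b | b
        · exact a.2 ⟨a.1, b.1⟩
        · exact a.2 ⟨a.1, i13 w a.1 b.1⟩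
  have hle : C.ι ≤ C.D := Submodule.finrank_mono inf_le_left
  have hD := C.D_le
  have hlt : C.D ≤ C.ι + 1 := by
    by_contra hcon
    obtain ⟨m, hm⟩ := Nat.exists_eq_add_of_le (show C.ι + 2 ≤ C.D by omega)
    have hb := (C.Φ.testBit hX h0 (k := C.ι + 1)).2 ⟨by omega, Or.inl (by
      rw [hN1, N_base]; exact C.Φ.v_mem (by omega)), by
      rw [eI, C.Φ.v_mem_iff (by omega)]; omega⟩
    have : X.ncard = 2 ^ C.ι * (12 * 2 ^ m - 3) := by
      have : 1 ≤ 2 ^ m := Nat.one_le_two_pow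
      rw [hm, pow_add, pow_add] at hc
      rw [Nat.mul_sub, show 2 ^ C.ι * (12 * 2 ^ m) = 3 * (2 ^ C.ι * 2 ^ 2 * 2 ^ m) by ring]; omega
    rw [this, Nat.testBit_eq_decide_div_mod_eq, pow_succ, Nat.mul_div_mul_left _ _ (by positivity)] at hb
    have : 1 ≤ 2 ^ m := Nat.one_le_two_pow
    simp at hb; omega
  rcases Nat.eq_or_lt_of_le hle with h | h
  · exact Or.inl h.symm
  have e : C.D = C.ι + 1 := by omega
  obtain ⟨a, b⟩ := C.Φ.eq_diff hX h0 (a := C.ι) (b := C.D + 1) (by omega)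
    (by rw [e, pow_succ] at hc; rw [e, pow_succ, pow_succ]; omega)
  refine Or.inr ⟨e, a (by omega), fun w => ?_⟩
  have := Set.ext_iff.1 b w
  simp only [X, Set.mem_setOf_eq, Set.mem_diff, SetLike.mem_coe, eI] at this
  by_cases hw : w ∈ C.U C.ι
  · have h1 : w ∈ N1 ⊓ N2 := eI ▸ hw
    exact ⟨fun _ => Or.inl h1.1, fun _ => C.Φ.mono (by omega) hw⟩
  · tauto

omit [Finite V] in
/-- closure lemma for blocks -/
theorem block (P : V → V → Submodule F2 V) (hc : ∀ a b, P a b = P b a)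
    (hP : ∀ x y w, I2 x y → I2 x w → w ∈ P x y → P x w = P x y) {x y a b : V} (hxy : I2 x y)
    (hx : x ∈ P x y) (ha : a ∈ P x y) (hb : b ∈ P x y) (hab : I2 a b) : P a b = P x y := by
  by_cases e : x = a
  · subst e; exact hP _ _ _ hxy hab hb
  have h1 : I2 x a := ⟨hxy.1, hab.1, e⟩
  have h2 : P a x = P x y := by rw [hc]; exact hP _ _ _ hxy h1 ha
  rw [← h2]
  exact hP _ _ _ h1.symm hab (h2 ▸ hb)

end Ctx

end CF.AFl
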