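import Cfsg.Agent.AFl.D

/-! The primitive case: polar spaces and generalized polygons do not extend. -/

set_option autoImplicit false
set_option linter.style.haveILetI false

namespace CF.AFl

open Module

variable {V : Type*} [AddCommGroup V] [Module F2 V] [Finite V]

theorem ncard_diff4 {L : Submodule F2 V} {x y : V} (h : I2 x y) (hx : x ∈ L) (hy : y ∈ L) :
    {z | z ∈ L ∧ I3 x y z}.ncard + 4 = 2 ^ finrank F2 L := by
  have e : {z | z ∈ L ∧ I3 x y z} =
      (L : Set V) \ (Submodule.span F2 {x} ⊔ Submodule.span F2 {y} : Submodule F2 V) := by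
    ext z
    simp only [Set.mem_setOf_eq, Set.mem_diff, SetLike.mem_coe, i3_iff h, mem_sup1, mem_span1,
      add_eq_zero]
    rw [← add_left_inj y (b := z + y), add_cancel_add]
    tauto
  have h2 := Set.ncard_diff_add_ncard_of_subset
    (s := ((Submodule.span F2 {x} ⊔ Submodule.span F2 {y} : Submodule F2 V) : Set V)) (t := L)
    (SetLike.coe_subset_coe.2 (sup_le (by simpa using hx) (by simpa using hy)))
  rw [card_sub, card_sub, Submodule.finrank_sup_span_singleton (by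
    rw [mem_span1, not_or]; exact ⟨h.2.1, h.2.2.symm⟩), finrank_span_singleton h.1] at h2
  rw [e, ← h2]; rfl

namespace Ctx
variable {G : Subgroup (GL2 V)} (C : Ctx G)

/-- the primitive case -/
structure Prim : Prop where
  e : C.D = C.ι + 1
  lt : C.D < finrank F2 V
  un : ∀ w, w ∈ C.U (C.D + 1) ↔ w ∈ C.N (C.v 0) (C.v 1) ∨ w ∈ C.N (C.v 0) (C.v 2) ∨
      w ∈ C.N (C.v 0) (C.v 1 + C.v 2)

theorem three_le_iota : 3 ≤ C.ι := by
  have : C.U 3 ≤ C.N (C.v 0) (C.v 1) ⊓ C.N (C.v 0) (C.v 2) := by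
    rw [U, C.Φ.succ, C.Φ.succ, C.Φ.succ, C.Φ.U0, bot_sup_eq]
    simp only [sup_le_iff, Submodule.span_singleton_le_iff_mem, Submodule.mem_inf]
    exact ⟨⟨⟨C.left_mem _ _, C.left_mem _ _⟩, C.right_mem _ _, Or.inr C.col2.p23⟩,
      Or.inr C.col2, C.right_mem _ _⟩
  have := Submodule.finrank_mono this
  rwa [C.Φ.finrank_U C.hn] at this

/-- union of colour classes -/
def M (x y : V) : Submodule F2 V := C.N x y ⊔ Submodule.span F2 {w | C.Col C.D x y w}

theorem M_comm (x y : V) : C.M x y = C.M y x := by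
  rw [M, M, N_comm]
  congr 2; ext; exact ⟨Col.p12, Col.p12⟩

theorem M_add (x y : V) : C.M x (x + y) = C.M x y := by
  rw [M, M, N_add]
  congr 2; ext; exact ⟨fun h => by simpa [add_add_cancel] using Col.add12 h, Col.add12⟩

theorem M_map {g : GL2 V} (hg : g ∈ G) (x y : V) :
    C.M (g x) (g y) = (C.M x y).map (g : V →ₗ[F2] V) := by
  rw [M, M, N_map _ hg, Submodule.map_sup, Submodule.map_span]
  congr 2
  ext z
  obtain ⟨z, rfl⟩ := g.surjective z
  simp [col_map_iff hg]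

namespace Prim
variable {C} (h : C.Prim)
include h

theorem colD {x y z w : V} (hz : C.Col 2 x y z) (h1 : w ∈ C.N x z) (h2 : w ∉ C.N x y) :
    C.Col C.D x y w := by
  obtain ⟨-, g, hg, rfl, rfl, rfl⟩ := hz
  obtain ⟨w, rfl⟩ := g.surjective w
  rw [C.map_mem_N hg] at h1 h2
  rw [N_base] at h2
  obtain ⟨s, hs, rfl⟩ := C.Φ.to_layer h2 ((h.un w).2 (Or.inr (Or.inl h1)))
  exact ((col_base (by have := C.three_le_D; omega) h.lt).smap hs).map hg

theorem of_colD {x y w : V} (hw : C.Col C.D x y w) :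
    w ∉ C.N x y ∧ ∃ z, C.Col 2 x y z ∧ w ∈ C.N x z := by
  obtain ⟨-, g, hg, rfl, rfl, rfl⟩ := hw
  have h1 : C.v C.D ∉ C.N (C.v 0) (C.v 1) := by rw [N_base]; exact C.Φ.nm h.lt
  refine ⟨by rwa [C.map_mem_N hg], ?_⟩
  rcases (h.un _).1 (C.Φ.v_mem (Nat.lt_succ_self _)) with a | a | a
  · exact absurd a h1
  · exact ⟨_, C.col2.map hg, (C.map_mem_N hg).2 a⟩
  · exact ⟨_, C.col2.add23.map hg, (C.map_mem_N hg).2 a⟩

theorem sup_mem {x y z w : V} (hz : C.Col 2 x y z) (hw : w ∈ C.N x y ⊔ C.N x z) :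
    w ∈ C.N x y ∨ w ∈ C.N x z ∨ w ∈ C.N x (y + z) := by
  obtain ⟨-, g, hg, rfl, rfl, rfl⟩ := hz
  obtain ⟨w, rfl⟩ := g.surjective w
  rw [← map_add, C.map_mem_N hg, C.map_mem_N hg, C.map_mem_N hg, ← h.un]
  rw [C.N_map hg, C.N_map hg, ← Submodule.map_sup] at hw
  have : C.N (C.v 0) (C.v 1) ⊔ C.N (C.v 0) (C.v 2) ≤ C.U (C.D + 1) :=
    sup_le (fun _ a => (h.un _).2 (Or.inl a)) fun _ a => (h.un _).2 (Or.inr (Or.inl a))
  obtain ⟨w', a, e⟩ := hw
  exact this (g.injective e ▸ a)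

theorem finrank_sup {x y z : V} (hz : C.Col 2 x y z) :
    finrank F2 ↥(C.N x y ⊔ C.N x z) = C.D + 1 := by
  have := Submodule.finrank_sup_add_finrank_inf_eq (C.N x y) (C.N x z)
  rw [C.finrank_inf hz, C.finrank_N hz.1.i2, C.finrank_N hz.1.p23.i2] at this
  have := h.e
  unfold ι at this
  omega

theorem col_of_mem {x y z w : V} (hz : C.Col 2 x y z) (h1 : w ∈ C.N x z) (h2 : w ∉ C.N x y) :
    C.Col 2 x z w := by
  refine T.col h1 ((i3_iff hz.1.p23.i2).2 ?_)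
  have hz' : z ∈ C.N x y := Or.inr hz
  rintro (rfl | rfl | rfl | rfl)
  · exact h2 (Submodule.zero_mem _)
  · exact h2 (C.left_mem _ _)
  · exact h2 hz'
  · exact h2 (Submodule.add_mem _ (C.left_mem _ _) hz')

theorem mu : ∃ E, E ≤ finrank F2 V ∧ {w | C.Col C.D (C.v 0) (C.v 1) w} = (C.U E : Set V) \ C.U C.D ∧
    (E = C.D + 1 ∨ (E = 6 ∧ C.D = 4 ∧
      finrank F2 ↥(C.N (C.v 0) (C.v 1) ⊓ C.N (C.v 0) (C.v C.D)) = 2)) := by
  set μ := finrank F2 ↥(C.N (C.v 0) (C.v 1) ⊓ C.N (C.v 0) (C.v C.D)) with hμ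
  have h3 := C.three_le_iota
  have he := h.e
  have cD : C.Col C.D (C.v 0) (C.v 1) (C.v C.D) := col_base (by omega) h.lt
  obtain ⟨n1, z, hz, n2⟩ := h.of_colD cD
  have m1 : μ < C.D := Submodule.finrank_lt_finrank_of_lt (lt_of_le_of_ne inf_le_left fun e => by
    have : C.v 1 ∈ C.N (C.v 0) (C.v 1) ⊓ C.N (C.v 0) (C.v C.D) := e.symm ▸ C.right_mem _ _
    exact n1 (C.mem_N_comm.1 this.2))
  have m2 : C.D ≤ μ + 2 := by
    have a := C.finrank_inf hz
    have b := C.finrank_inf (h.col_of_mem hz n2 n1)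
    have c := Submodule.finrank_sup_add_finrank_inf_eq (C.N (C.v 0) (C.v 1) ⊓ C.N (C.v 0) z)
      (C.N (C.v 0) z ⊓ C.N (C.v 0) (C.v C.D))
    have d := Submodule.finrank_mono (show (C.N (C.v 0) (C.v 1) ⊓ C.N (C.v 0) z) ⊔
      (C.N (C.v 0) z ⊓ C.N (C.v 0) (C.v C.D)) ≤ C.N (C.v 0) z from sup_le inf_le_right inf_le_left)
    have e := Submodule.finrank_mono (show (C.N (C.v 0) (C.v 1) ⊓ C.N (C.v 0) z) ⊓
      (C.N (C.v 0) z ⊓ C.N (C.v 0) (C.v C.D)) ≤ C.N (C.v 0) (C.v 1) ⊓ C.N (C.v 0) (C.v C.D) from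
      fun _ a => ⟨a.1.1, a.2.2⟩)
    rw [C.finrank_N hz.1.p23.i2] at d
    unfold ι at he
    omega
  have hcount := dcount {z | z ∈ C.N (C.v 0) (C.v 1) ∧ I3 (C.v 0) (C.v 1) z}
    {w | C.Col C.D (C.v 0) (C.v 1) w} (fun z w => w ∈ C.N (C.v 0) z) (2 ^ C.ι) (2 ^ μ - 2) (by
      intro z hz
      have hz' : C.Col 2 _ _ z := T.col hz.1 hz.2
      have e : {w | w ∈ {w | C.Col C.D (C.v 0) (C.v 1) w} ∧ w ∈ C.N (C.v 0) z} =
          (C.N (C.v 0) z : Set V) \ (C.N (C.v 0) (C.v 1) ⊓ C.N (C.v 0) z : Submodule F2 V) := by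
        ext w
        exact ⟨fun a => ⟨a.2, fun b => (h.of_colD a.1).1 b.1⟩,
          fun a => ⟨h.colD hz' a.1 fun b => a.2 ⟨b, a.1⟩, a.1⟩⟩
      rw [e, Set.ncard_diff (SetLike.coe_subset_coe.2 inf_le_right), card_sub, card_sub,
        C.finrank_inf hz', C.finrank_N hz'.1.p23.i2, he, pow_succ]
      unfold ι; omega) (by
      intro w hw
      have hw' := (h.of_colD hw).1
      have := ncard_diff2 (L := C.N (C.v 0) (C.v 1) ⊓ C.N (C.v 0) w) (x := C.v 0)
        ⟨C.left_mem _ _, C.left_mem _ _⟩ C.i2.1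
      rw [C.finrank_inf hw, ← hμ] at this
      rw [← this, Nat.add_sub_cancel]
      congr 1
      ext z
      constructor
      · rintro ⟨⟨a, b⟩, c⟩
        exact ⟨⟨a, C.mem_N_comm.1 c⟩, b.2.2.1, fun e => b.2.2.2.2.1 (by rw [e, add_self])⟩
      · rintro ⟨⟨a, b⟩, c, d⟩
        refine ⟨⟨a, (i3_iff C.i2).2 ?_⟩, C.mem_N_comm.1 b⟩
        rintro (e | e | e | e)
        · exact c e
        · exact d e
        · exact hw' (C.mem_N_comm.1 (e ▸ b))
        · rw [e] at b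
          have b' := (C.N (C.v 0) w).add_mem (C.left_mem (C.v 0) w) b
          rw [add_add_cancel] at b'
          exact hw' (C.mem_N_comm.1 b'))
  have c4 := ncard_diff4 C.i2 (C.left_mem (C.v 0) (C.v 1)) (C.right_mem _ _)
  change _ = 2 ^ C.D at c4
  have hX : ∀ s ∈ C.S, ∀ w ∈ {w | C.Col C.D (C.v 0) (C.v 1) w},
      s w ∈ {w | C.Col C.D (C.v 0) (C.v 1) w} := fun s hs w hw => Col.smap hw hs
  have h0 : (0 : V) ∉ {w | C.Col C.D (C.v 0) (C.v 1) w} := fun a => a.1.2.2.1 rfl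
  obtain ⟨m, hm⟩ := Nat.exists_eq_add_of_le h3
  set A := {z | z ∈ C.N (C.v 0) (C.v 1) ∧ I3 (C.v 0) (C.v 1) z}.ncard
  set B := {w | C.Col C.D (C.v 0) (C.v 1) w}.ncard with hB
  have p1 : 1 ≤ 2 ^ m := Nat.one_le_two_pow
  have eD : 2 ^ C.D = 16 * 2 ^ m := by rw [he, hm]; ring
  have eι : 2 ^ C.ι = 8 * 2 ^ m := by rw [hm]; ring
  obtain ⟨a, ha⟩ := Nat.exists_eq_add_of_le p1
  have hA : A = 16 * a + 12 := by omega
  rcases (by omega : μ = C.ι ∨ μ + 1 = C.ι) with e | e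
  · have : B = 2 ^ C.D := by
      rw [e, eι, hA, ha, show 8 * (1 + a) - 2 = 8 * a + 6 by omega] at hcount
      apply Nat.eq_of_mul_eq_mul_right (show 0 < 8 * a + 6 by omega)
      rw [← hcount, eD, ha]; ring
    obtain ⟨b, c⟩ := C.Φ.eq_diff hX h0 (a := C.D) (b := C.D + 1) (by omega)
      (by rw [← hB, this, pow_succ]; omega)
    exact ⟨_, b (by omega), c, Or.inl rfl⟩
  · have eμ : 2 ^ μ = 4 * 2 ^ m := by rw [show μ = m + 2 by omega]; ring
    rw [eμ, eι, hA, ha, show 4 * (1 + a) - 2 = 2 * (2 * a + 1) by omega] at hcount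
    have d1 : 2 * a + 1 ∣ (4 * a + 3) * 2 ^ (m + 4) :=
      ⟨B, by rw [pow_add, ha]; nlinarith⟩
    have d2 : 2 * a + 1 ∣ 4 * a + 3 :=
      (Nat.Coprime.pow_right _ (Nat.coprime_two_right.2 (odd_two_mul_add_one a))).dvd_of_dvd_mul_right d1
    have d3 : 2 * a + 1 ∣ 1 := (Nat.dvd_add_right (show 2 * a + 1 ∣ 2 * (2 * a + 1) from
      Dvd.intro_left _ rfl)).1 (by rwa [show 2 * (2 * a + 1) + 1 = 4 * a + 3 by ring])
    have a0 : a = 0 := by have := Nat.le_of_dvd one_pos d3; omega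
    have m0 : m = 0 := by
      rw [a0] at ha
      exact (Nat.pow_eq_one.1 ha).resolve_left (by omega)
    obtain ⟨b, c⟩ := C.Φ.eq_diff hX h0 (a := C.D) (b := 6) (by omega)
      (by rw [← hB, eD, ha, a0]; rw [a0] at hcount; omega)
    exact ⟨_, b (by omega), c, Or.inr ⟨rfl, by omega, by omega⟩⟩

omit h in
theorem M_eq {E : ℕ} (hE : E ≤ finrank F2 V) (hDE : C.D ≤ E)
    (hc : {w | C.Col C.D (C.v 0) (C.v 1) w} = (C.U E : Set V) \ C.U C.D) {x y : V} (hxy : I2 x y) :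
    finrank F2 (C.M x y) = E ∧ ∀ w, w ∈ C.M x y → w ∈ C.N x y ∨ C.Col C.D x y w := by
  have e : C.M (C.v 0) (C.v 1) = C.U E := by
    apply le_antisymm
    · refine sup_le ?_ (Submodule.span_le.2 ?_)
      · rw [N_base]; exact C.Φ.mono hDE
      · rw [hc]; exact Set.diff_subset
    · intro w hw
      by_cases a : w ∈ C.U C.D
      · exact Submodule.mem_sup_left (by rwa [N_base])
      · exact Submodule.mem_sup_right (Submodule.subset_span (by rw [hc]; exact ⟨hw, a⟩))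
  obtain ⟨g, hg, rfl, rfl⟩ := C.tr _ _ _ _ C.i2 hxy
  rw [C.M_map hg, LinearEquiv.finrank_map_eq, e, C.Φ.finrank_U hE]
  refine ⟨rfl, ?_⟩
  rintro _ ⟨w, hw, rfl⟩
  simp only [LinearEquiv.coe_coe]
  rw [C.map_mem_N hg, col_map_iff hg, N_base]
  have := Set.ext_iff.1 hc w
  simp only [Set.mem_setOf_eq, Set.mem_diff, SetLike.mem_coe] at this hw
  tauto

theorem N_le_M {x y z : V} (hz : C.Col 2 x y z) : C.N x z ≤ C.M x y := fun w hw => by
  by_cases a : w ∈ C.N x y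
  · exact Submodule.mem_sup_left a
  · exact Submodule.mem_sup_right (Submodule.subset_span (h.colD hz hw a))

theorem false : False := by
  classical
  obtain ⟨E, hE, hc, hcase⟩ := h.mu
  have h3 := C.three_le_iota
  have he := h.e
  have hM := fun x y => M_eq hE (by omega) hc (x := x) (y := y)
  have key : ∀ x y z, C.Col 2 x y z → C.M x z = C.M x y := by
    intro x y z hz
    have l1 : C.N x y ⊔ C.N x z ≤ C.M x y := sup_le le_sup_left (h.N_le_M hz)
    have l2 : C.N x y ⊔ C.N x z ≤ C.M x z := sup_le (h.N_le_M hz.p23) le_sup_left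
    have f1 := (hM _ _ hz.1.i2).1
    have f2 := (hM _ _ hz.1.p23.i2).1
    have f3 := h.finrank_sup hz
    rcases hcase with e | ⟨e, e', -⟩
    · rw [← Submodule.eq_of_le_of_finrank_eq l1 (by omega),
        ← Submodule.eq_of_le_of_finrank_eq l2 (by omega)]
    · -- a point of `N y z` outside the plane
      let Pl := Submodule.span F2 {x} ⊔ Submodule.span F2 {y} ⊔ Submodule.span F2 {z}
      have hPl : finrank F2 Pl = 3 := by
        rw [Submodule.finrank_sup_span_singleton, Submodule.finrank_sup_span_singleton,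
          finrank_span_singleton hz.1.1]
        · rw [mem_span1, not_or]; exact ⟨hz.1.2.1, hz.1.i2.2.2.symm⟩
        · have := (i3_iff hz.1.i2).1 hz.1
          rw [mem_sup1, mem_span1, mem_span1, add_eq_zero, ← add_left_inj y (b := z + y),
            add_cancel_add]
          tauto
      obtain ⟨w, w1, w2⟩ := exists_mem_notMem (L := C.N y z) (K := Pl)
        (by rw [C.finrank_N hz.1.p12.p23.i2]; omega)
      have hin : ∀ a b c, C.Col 2 a b c → x ∈ C.N a b ⊓ C.N a c → y ∈ C.N a b ⊓ C.N a c →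
          z ∈ C.N a b ⊓ C.N a c → w ∈ C.N a b → w ∈ C.N a c → False := by
        intro a b c habc i1 i2 i3 j1 j2
        have : Pl = C.N a b ⊓ C.N a c := Submodule.eq_of_le_of_finrank_eq
          (sup_le (sup_le (by simpa using i1) (by simpa using i2)) (by simpa using i3))
          (by rw [C.finrank_inf habc, hPl]; unfold ι at he; omega)
        exact w2 (this ▸ ⟨j1, j2⟩)
      have xyz : x ∈ C.N y z := Or.inr hz.p12.p23
      have w3 : w ∉ C.N x y ⊔ C.N x z := fun a => by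
        rcases h.sup_mem hz a with a | a | a
        · exact hin y x z hz.p12 ⟨C.right_mem _ _, xyz⟩ ⟨C.left_mem _ _, C.left_mem _ _⟩
            ⟨Or.inr hz.p12, C.right_mem _ _⟩ (C.N_comm _ _ ▸ a) w1
        · exact hin z x y hz.p23.p12 ⟨C.right_mem _ _, C.N_comm _ _ ▸ xyz⟩
            ⟨Or.inr hz.p23.p12, C.right_mem _ _⟩ ⟨C.left_mem _ _, C.left_mem _ _⟩
            (C.N_comm _ _ ▸ a) (C.N_comm _ _ ▸ w1)
        · have e1 : C.N (y + z) y = C.N y z := by rw [N_comm, N_add]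
          have c := hz.add23.p23.p12
          refine hin (y + z) x y c ⟨C.right_mem _ _, e1 ▸ xyz⟩ ⟨Or.inr c, C.right_mem _ _⟩
            ⟨?_, e1 ▸ C.right_mem _ _⟩ (C.N_comm _ _ ▸ a) (e1 ▸ w1)
          simpa [add_add_cancel] using Submodule.add_mem _ (show y ∈ C.N (y + z) x from Or.inr c)
            (C.left_mem (y + z) x)
      have f4 := Submodule.finrank_sup_span_singleton w3
      have l3 : C.N x y ⊔ C.N x z ⊔ Submodule.span F2 {w} ≤ C.M x y :=
        sup_le l1 (by rw [Submodule.span_singleton_le_iff_mem, M_comm]; exact h.N_le_M hz.p12 w1)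
      have l4 : C.N x y ⊔ C.N x z ⊔ Submodule.span F2 {w} ≤ C.M x z :=
        sup_le l2 (by
          rw [Submodule.span_singleton_le_iff_mem, M_comm]
          exact h.N_le_M hz.p23.p12 (C.N_comm _ _ ▸ w1))
      rw [← Submodule.eq_of_le_of_finrank_eq l3 (by omega),
        ← Submodule.eq_of_le_of_finrank_eq l4 (by omega)]
  have hP : ∀ x y w, I2 x y → I2 x w → w ∈ C.M x y → C.M x w = C.M x y := by
    intro x y w hxy hxw hw
    rcases (hM _ _ hxy).2 w hw with a | a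
    · by_cases b : I3 x y w
      · exact key _ _ _ (T.col a b)
      · rw [i3_iff hxy, not_not] at b
        rcases b with rfl | rfl | rfl | rfl
        · exact absurd rfl hxw.2.1
        · exact absurd rfl hxw.2.2
        · rfl
        · exact C.M_add _ _
    · obtain ⟨b, z, hz, c⟩ := h.of_colD a
      rw [key _ _ _ (h.col_of_mem hz c b), key _ _ _ hz]
  have hx : C.v 0 ∈ C.M (C.v 0) (C.v 1) := Submodule.mem_sup_left (C.left_mem _ _)
  have hB := fun a b => block C.M C.M_comm hP (a := a) (b := b) C.i2 hx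
  have fB := (hM _ _ C.i2).1
  set B := C.M (C.v 0) (C.v 1)
  have hNB : ∀ a ∈ B, ∀ b ∈ B, I2 a b → C.N a b ≤ B := fun a ha b hb hab =>
    hB a b ha hb hab ▸ le_sup_left
  rcases hcase with e | ⟨e, e', e''⟩
  · have i2 : ∀ a b : B, I2 a b ↔ I2 a.1 b.1 := fun a b => by
      simp only [I2, ne_eq, Subtype.ext_iff, ZeroMemClass.coe_zero]
    refine no_tri (V := B) (by omega) (fun a b c => C.T a b c) (fun _ _ _ => T.p12)
      (fun _ _ _ => T.p23) (fun a b hab c => Or.inl fun d => hab ((i2 _ _).2 d.i2)) fun a b hab => ?_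
    rw [i2] at hab
    exact exists_ker (U := (C.N a b).comap B.subtype) (by
      rw [finrank_comap_subtype, inf_eq_right.2 (hNB _ a.2 _ b.2 hab), C.finrank_N hab]; omega)
  · obtain ⟨φ, hφ⟩ := exists_dual1 C.i2.1
    set x := C.v 0
    have i2 : ∀ a, φ a = 0 → a ≠ 0 → I2 x a := fun a h1 h2 =>
      ⟨C.i2.1, h2, fun e => by rw [← e, hφ] at h1; exact one_ne_zero h1⟩
    have i3 : ∀ a b, φ a = 0 → a ≠ 0 → φ b = 0 → b ≠ 0 → a ≠ b → I3 x a b := by
      intro a b h1 h2 h3 h4 h5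
      rw [i3_iff (i2 a h1 h2)]
      rintro (e | e | e | e)
      · exact h4 e
      · exact (i2 b h3 h4).2.2 e.symm
      · exact h5 e.symm
      · rw [e, map_add, hφ, h1] at h3; simp at h3
    refine no_friend' {a | a ∈ B ⊓ LinearMap.ker φ ∧ a ≠ 0} ?_ (fun a b => a ≠ b ∧ C.T x a b)
      (fun a b c => ⟨c.1.symm, c.2.p23⟩) (fun a c => c.1 rfl) ?_ ?_
    · have := finrank_inf_ker hx hφ
      have c := Set.ncard_diff_singleton_add_one (s := ((B ⊓ LinearMap.ker φ : Submodule F2 V) : Set V))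
        (Submodule.zero_mem _)
      rw [card_sub, show finrank F2 ↥(B ⊓ LinearMap.ker φ) = 5 by omega] at c
      exact Nat.add_right_cancel c
    · rintro a ⟨⟨a1, a2⟩, a3⟩
      have := finrank_inf_ker (C.left_mem x a) hφ
      have c := ncard_diff2 (L := C.N x a ⊓ LinearMap.ker φ) ⟨C.right_mem _ _, a2⟩ a3
      rw [C.finrank_N (i2 a a2 a3)] at this
      rw [show finrank F2 ↥(C.N x a ⊓ LinearMap.ker φ) = 3 by omega] at c
      refine Eq.trans ?_ (Nat.add_right_cancel (m := 2) (k := 6) c)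
      congr 1
      ext b
      exact ⟨fun d => ⟨⟨d.2.2, d.1.1.2⟩, d.1.2, d.2.1.symm⟩,
        fun d => ⟨⟨⟨hNB _ hx _ a1 (i2 a a2 a3) d.1.1, d.1.2⟩, d.2.1⟩, d.2.2.symm, d.1.1⟩⟩
    · rintro a ⟨⟨a1, a2⟩, a3⟩ b ⟨⟨b1, b2⟩, b3⟩ hab
      have := finrank_inf_ker (L := C.N x a ⊓ C.N x b) ⟨C.left_mem x a, C.left_mem x b⟩ hφ
      have hI := i3 a b a2 a3 b2 b3 hab
      by_cases hT : C.T x a b
      · rw [C.finrank_inf (hT.col hI)] at this
        have c := ncard_diff2 (L := C.N x a ⊓ C.N x b ⊓ LinearMap.ker φ)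
          ⟨⟨C.right_mem _ _, hT.p23⟩, a2⟩ a3
        unfold ι at he
        rw [show finrank F2 ↥(C.N x a ⊓ C.N x b ⊓ LinearMap.ker φ) = 2 by omega] at c
        have c' := Set.ncard_diff_singleton_add_one
          (s := {z | z ∈ C.N x a ⊓ C.N x b ⊓ LinearMap.ker φ ∧ z ≠ 0 ∧ z ≠ a}) (a := b)
          ⟨⟨⟨hT, C.right_mem _ _⟩, b2⟩, b3, hab.symm⟩
        refine Eq.trans ?_ (show ({z | z ∈ C.N x a ⊓ C.N x b ⊓ LinearMap.ker φ ∧ z ≠ 0 ∧ z ≠ a} \
          {b}).ncard = 1 by omega)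
        congr 1
        ext c
        exact ⟨fun d => ⟨⟨⟨⟨d.2.1.2, d.2.2.2⟩, d.1.1.2⟩, d.1.2, d.2.1.1.symm⟩, d.2.2.1.symm⟩,
          fun d => ⟨⟨⟨hNB _ hx _ a1 (i2 a a2 a3) d.1.1.1.1, d.1.1.2⟩, d.1.2.1⟩,
            ⟨d.1.2.2.symm, d.1.1.1.1⟩, Ne.symm d.2, d.1.1.1.2⟩⟩
      · have hc := ((hM _ _ (i2 a a2 a3)).2 b ((hB _ _ hx a1 (i2 a a2 a3)).symm ▸ b1)).resolve_left hT
        rw [C.finrank_inf hc, e''] at this
        have c := Set.ncard_diff_singleton_add_one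
          (s := ((C.N x a ⊓ C.N x b ⊓ LinearMap.ker φ : Submodule F2 V) : Set V))
          (Submodule.zero_mem _)
        rw [card_sub, show finrank F2 ↥(C.N x a ⊓ C.N x b ⊓ LinearMap.ker φ) = 1 by omega] at c
        refine Eq.trans ?_ (Nat.add_right_cancel c)
        congr 1
        ext c
        exact ⟨fun d => ⟨⟨⟨d.2.1.2, d.2.2.2⟩, d.1.1.2⟩, d.1.2⟩,
          fun d => ⟨⟨⟨hNB _ hx _ a1 (i2 a a2 a3) d.1.1.1, d.1.2⟩, d.2⟩,
            ⟨fun e => hT (T.p23 (e ▸ d.1.1.2)), d.1.1.1⟩, fun e => hT (e ▸ d.1.1.1), d.1.1.2⟩⟩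

end Prim

end Ctx

end CF.AFl
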