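import Cfsg.Agent.AFl.E

/-! The imprimitive case and the Cameron–Kantor theorem over `F₂`. -/

set_option autoImplicit false
set_option linter.style.haveILetI false

namespace CF.AFl

open Module CF.Geom

section
variable {V : Type*} [AddCommGroup V] [Module F2 V] [Finite V]

omit [Finite V] in
theorem i2_iff {x y : V} (hx : x ≠ 0) : I2 x y ↔ ¬ (y = 0 ∨ y = x) :=
  ⟨fun h c => c.elim h.2.1 fun e => h.2.2 e.symm,
    fun h => ⟨hx, fun e => h (Or.inl e), fun e => h (Or.inr e.symm)⟩⟩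

/-- every point stabiliser induces a transvection on the quotient -/
def HasQ (G : Subgroup (GL2 V)) : Prop :=
  ∀ x : V, x ≠ 0 → ∃ g ∈ G, g x = x ∧ ∃ (φ : Dual F2 V) (y : V), φ ≠ 0 ∧ φ x = 0 ∧ φ y = 0 ∧ I2 x y ∧
    ∀ v, g v + v + φ v • y ∈ Submodule.span F2 {x}

namespace Ctx
variable {G : Subgroup (GL2 V)} (C : Ctx G)

theorem ulem (hlt : C.D < finrank F2 V) {x : V} {f : Dual F2 V} (hx : x ≠ 0) (hf : f ≠ 0)
    (hfx : f x = 0) : ∃ W : Submodule F2 V, finrank F2 W + C.D = finrank F2 V + 1 ∧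
      ∀ y, y ∈ W ↔ ¬ I2 x y ∨ C.N x y ≤ LinearMap.ker f := by
  have hn := C.hn
  have h3 := C.three_le_D
  obtain ⟨f0, h0, hk⟩ := exists_ker (U := C.U (finrank F2 V - 1))
    (by rw [C.Φ.finrank_U (by omega)]; omega)
  have hv : f0 (C.v 0) = 0 := (hk _).1 (C.Φ.v_mem (by omega))
  suffices H : ∃ W : Submodule F2 V, finrank F2 W + C.D = finrank F2 V + 1 ∧
      ∀ y, y ∈ W ↔ ¬ I2 (C.v 0) y ∨ C.N (C.v 0) y ≤ LinearMap.ker f0 by
    obtain ⟨W, a, b⟩ := H
    obtain ⟨g, hg, rfl, rfl⟩ := C.tr.af' (by omega) C.i2.1 hx h0 hf (by rw [hv, hfx])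
    refine ⟨W.map (g : V →ₗ[F2] V), by rw [LinearEquiv.finrank_map_eq, a], fun y => ?_⟩
    obtain ⟨y, rfl⟩ := g.surjective y
    rw [i2_map_iff, C.N_map hg, Submodule.map_le_iff_le_comap]
    have : (LinearMap.ker (dl g f0)).comap (g : V →ₗ[F2] V) = LinearMap.ker f0 := by ext; simp
    rw [this, ← b]; simp
  set x := C.v 0
  let X : Set V := {y | I2 x y ∧ C.N x y ≤ LinearMap.ker f0}
  have hX : ∀ s ∈ C.S, ∀ y ∈ X, s y ∈ X := by
    rintro s hs y ⟨a, b⟩
    refine ⟨by have := a.map s; rwa [C.s0 hs] at this, fun z hz => ?_⟩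
    have := b (show s⁻¹ z ∈ C.N x y by simpa using C.smem (inv_mem hs) hz)
    simpa using (hk _).1 (C.Φ.inv _ s hs _ ((hk _).2 this))
  have hc := dcount {y | I2 x y ∧ ¬ C.N x y ≤ LinearMap.ker f0} {w | f0 w = 1}
    (fun y w => w ∈ C.N x y) (2 ^ (C.D - 1)) (2 ^ C.D - 2) (by
      rintro y ⟨a, b⟩
      obtain ⟨z, z1, z2⟩ := Set.not_subset.1 b
      rw [← C.finrank_N a, ← card_eq_one z1 (f2_ne_zero.1 z2)]; rfl) (by
      intro w hw
      have hw' : I2 x w := ⟨C.i2.1, fun e => by simp [e] at hw, fun e => by simp [← e, hv] at hw⟩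
      rw [← C.finrank_N hw', ← ncard_diff2 (C.left_mem x w) C.i2.1, Nat.add_sub_cancel]
      congr 1
      ext y
      exact ⟨fun a => ⟨C.mem_N_comm.1 a.2, a.1.1.2.1, a.1.1.2.2.symm⟩,
        fun a => ⟨⟨⟨C.i2.1, a.2.1, a.2.2.symm⟩, fun b => by
          have := b (C.mem_N_comm.1 a.1)
          simp [show f0 w = 1 from hw] at this⟩, C.mem_N_comm.1 a.1⟩⟩)
  obtain ⟨u, hu⟩ := exists_eq_one h0
  have c1 := card_eq_one (L := ⊤) (x := u) trivial hu
  simp only [Submodule.mem_top, and_true, finrank_top] at c1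
  have c2 := ncard_diff2 (L := ⊤) (x := x) trivial C.i2.1
  have c3 : {z : V | z ∈ (⊤ : Submodule F2 V) ∧ z ≠ 0 ∧ z ≠ x} =
      X ∪ {y | I2 x y ∧ ¬ C.N x y ≤ LinearMap.ker f0} := by
    ext z
    simp only [X, Set.mem_setOf_eq, Submodule.mem_top, true_and, Set.mem_union,
      i2_iff (show x ≠ 0 from C.i2.1)]
    tauto
  rw [c3, Set.ncard_union_eq (Set.disjoint_left.2 fun z a b => b.2 a.2), finrank_top] at c2
  rw [c1] at hc
  obtain ⟨m, hm⟩ := Nat.exists_eq_add_of_lt hlt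
  obtain ⟨d, hd⟩ := Nat.exists_eq_add_of_le (show 1 ≤ C.D by omega)
  have hA : {y | I2 x y ∧ ¬ C.N x y ≤ LinearMap.ker f0}.ncard = 2 ^ (m + 1) * (2 ^ C.D - 2) := by
    apply Nat.eq_of_mul_eq_mul_right (show 0 < 2 ^ (C.D - 1) by positivity)
    rw [hc, show finrank F2 V - 1 = (m + 1) + (C.D - 1) by omega, pow_add]; ring
  have p2 : 2 ≤ 2 ^ C.D := by rw [hd, pow_add]; have := @Nat.one_le_two_pow d; omega
  obtain ⟨a, b⟩ := C.Φ.eq_diff hX (fun h => h.1.2.1 rfl) (a := 1) (b := m + 2) (by omega) (by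
    rw [hA, hm, Nat.mul_sub, show C.D + m + 1 = (m + 1) + C.D by ring, pow_add 2 (m + 1)] at c2
    have := Nat.mul_le_mul_left (2 ^ (m + 1)) p2
    rw [pow_succ 2 (m + 1)]; omega)
  refine ⟨C.U (m + 2), by rw [C.Φ.finrank_U (a (by omega))]; omega, fun y => ?_⟩
  have := Set.ext_iff.1 b y
  simp only [X, Set.mem_setOf_eq, Set.mem_diff, SetLike.mem_coe] at this
  have e : y ∈ C.Φ.U 1 ↔ ¬ I2 x y := by
    rw [C.mem_U1, i2_iff C.i2.1, not_not]
  have := fun h => C.Φ.mono (show 1 ≤ m + 2 by omega) (x := y) h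
  tauto

theorem blk (e : C.D = C.ι) {x y w : V} (hxy : I2 x y) (hxw : I2 x w) (hw : w ∈ C.N x y) :
    C.N x w = C.N x y := by
  by_cases b : I3 x y w
  · have h1 := C.finrank_inf (T.col hw b)
    unfold ι at e
    rw [← Submodule.eq_of_le_of_finrank_eq (inf_le_left : C.N x y ⊓ C.N x w ≤ _)
      (by rw [h1, C.finrank_N hxy, e])]
    exact (Submodule.eq_of_le_of_finrank_eq inf_le_right (by rw [h1, C.finrank_N hxw, e])).symm
  · rw [i3_iff hxy, not_not] at b
    rcases b with rfl | rfl | rfl | rfl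
    · exact absurd rfl hxw.2.1
    · exact absurd rfl hxw.2.2
    · rfl
    · exact C.N_add _ _

theorem geo (e : C.D = C.ι) (hlt : C.D < finrank F2 V) {x a v w : V} (ha : I2 x a) (hv : I2 x v)
    (hw : w ∈ C.N x a ⊔ C.N x v) (hw' : I2 x w) : C.N x w ≤ C.N x a ⊔ C.N x v := by
  intro z hz
  rw [← Subspace.forall_mem_dualAnnihilator_apply_eq_zero_iff]
  intro f hf
  rw [Submodule.mem_dualAnnihilator] at hf
  by_cases h0 : f = 0
  · simp [h0]
  obtain ⟨W, -, hW⟩ := C.ulem hlt ha.1 h0 (hf _ (Submodule.mem_sup_left (C.left_mem _ _)))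
  have : C.N x a ⊔ C.N x v ≤ W := by
    refine sup_le (fun y hy => (hW y).2 ?_) fun y hy => (hW y).2 ?_
    · rw [or_iff_not_imp_left, not_not]
      intro h; rw [C.blk e ha h hy]; exact fun u hu => hf _ (Submodule.mem_sup_left hu)
    · rw [or_iff_not_imp_left, not_not]
      intro h; rw [C.blk e hv h hy]; exact fun u hu => hf _ (Submodule.mem_sup_right hu)
  exact ((hW w).1 (this hw)).resolve_left (not_not.2 hw') hz

theorem tr_block (e : C.D = C.ι) :
    Tr2 (stabRestrict G (C.N (C.v 0) (C.v 1))).range := by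
  have i2 : ∀ a b : C.N (C.v 0) (C.v 1), I2 a b → I2 a.1 b.1 := fun a b => by
    simp only [I2, ne_eq, Subtype.ext_iff, ZeroMemClass.coe_zero]; exact id
  intro a b a' b' h h'
  obtain ⟨g, hg, e1, e2⟩ := C.tr _ _ _ _ (i2 _ _ h) (i2 _ _ h')
  have hB := fun a b => block C.N C.N_comm (fun _ _ _ => C.blk e) (a := a) (b := b) C.i2
    (C.left_mem _ _)
  have : (⟨g, hg⟩ : G) ∈ stabSet G (C.N (C.v 0) (C.v 1)) := by
    rw [mem_stabSet_iff_map_eq]
    conv_lhs => rw [← hB _ _ a.2 b.2 (i2 _ _ h)]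
    rw [← C.N_map hg, e1, e2, hB _ _ a'.2 b'.2 (i2 _ _ h')]
  exact ⟨_, ⟨⟨_, this⟩, rfl⟩, Subtype.ext e1, Subtype.ext e2⟩

theorem imp4 (e : C.D = C.ι) (hlt : C.D < finrank F2 V) (h4 : 4 ≤ C.D)
    (hQ : HasQ (stabRestrict G (C.N (C.v 0) (C.v 1))).range) : False := by
  set x := C.v 0
  set B := C.N x (C.v 1) with hB
  obtain ⟨_, ⟨g, rfl⟩, g1, φ, y, φ0, φ1, φ2, hy, hg⟩ := hQ ⟨x, C.left_mem _ _⟩
    fun h => C.i2.1 (congrArg Subtype.val h)
  have gx : g.1.1 x = x := congrArg Subtype.val g1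
  let X := Submodule.span F2 {x}
  have hgX : g.1 ∈ stabSet G X := mem_stabSet_iff_le.2 fun u hu => by
    rcases mem_span1.1 hu with rfl | rfl
    · simp
    · rw [gx]; exact hu
  obtain ⟨ψ, hψ⟩ := LinearMap.exists_extend φ
  have hψ' : ∀ b : B, ψ b = φ b := fun b => LinearMap.congr_fun hψ b
  let χ : Dual F2 (V ⧸ X) := X.liftQ ψ (by
    rw [Submodule.span_singleton_le_iff_mem]; exact (hψ' ⟨x, C.left_mem _ _⟩).trans φ1)
  have hχ : ∀ b : B, χ (Submodule.Quotient.mk b.1) = φ b := hψ'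
  let A : V ⧸ X → Submodule F2 (V ⧸ X) := fun w =>
    (C.N x (Function.surjInv X.mkQ_surjective w)).map X.mkQ
  have hA : ∀ w, A (Submodule.Quotient.mk w) = (C.N x w).map X.mkQ := by
    intro w
    have := (Submodule.Quotient.eq X).1 (Function.surjInv_eq X.mkQ_surjective (X.mkQ w))
    rw [sub_eq] at this
    rcases mem_span1.1 this with h | h
    · rw [add_eq_zero] at h
      show (C.N x (Function.surjInv X.mkQ_surjective (X.mkQ w))).map X.mkQ = _
      rw [h]
    · show (C.N x (Function.surjInv X.mkQ_surjective (X.mkQ w))).map X.mkQ = _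
      rw [← add_cancel_add (Function.surjInv X.mkQ_surjective (X.mkQ w)) w, h, N_add]
  have hne : ∀ w, (Submodule.Quotient.mk w : V ⧸ X) ≠ 0 ↔ I2 x w := fun w => by
    rw [ne_eq, Submodule.Quotient.mk_eq_zero, mem_span1, i2_iff C.i2.1]
  have hmem : ∀ (L : Submodule F2 V), x ∈ L → ∀ w,
      (Submodule.Quotient.mk w : V ⧸ X) ∈ L.map X.mkQ ↔ w ∈ L := by
    intro L hL w
    refine ⟨?_, fun h => ⟨w, h, rfl⟩⟩
    rintro ⟨w', h, e⟩
    have := (Submodule.Quotient.eq X).1 e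
    have : w' - w ∈ L := (Submodule.span_singleton_le_iff_mem _ _).2 hL this
    simpa using L.sub_mem h this
  obtain ⟨a1, ha1⟩ := exists_eq_one φ0
  have hy' : I2 x y.1 := by simpa only [I2, ne_eq, Subtype.ext_iff, ZeroMemClass.coe_zero] using hy
  refine spread A (d := C.D - 1) (by omega) ?_ ?_ ?_ ?_ (s := stabQuot G X ⟨g.1, hgX⟩) ?_
    (a0 := Submodule.Quotient.mk (C.v 1)) (x0 := Submodule.Quotient.mk y.1)
    (a1 := Submodule.Quotient.mk a1.1) ((hne _).2 C.i2) ?_ (φ := χ) ?_ ((hne _).2 hy') ?_ ?_ ?_ ?_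
  · intro w
    induction w using Submodule.Quotient.induction_on with | H w =>
    rw [hA]; exact ⟨w, C.right_mem _ _, rfl⟩
  · intro w hw w' h hw'
    induction w using Submodule.Quotient.induction_on with | H w =>
    induction w' using Submodule.Quotient.induction_on with | H w' =>
    rw [hA, hmem _ (C.left_mem _ _)] at h
    rw [hA, hA, C.blk e ((hne _).1 hw) ((hne _).1 hw') h]
  · intro w hw
    induction w using Submodule.Quotient.induction_on with | H w =>
    have := finrank_map_add X.mkQ (C.N x w)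
    rw [Submodule.ker_mkQ, inf_eq_right.2 ((Submodule.span_singleton_le_iff_mem _ _).2
      (C.left_mem _ _)), finrank_span_singleton C.i2.1, C.finrank_N ((hne _).1 hw)] at this
    rw [hA]; omega
  · intro a v w ha hv hw hw0
    induction w using Submodule.Quotient.induction_on with | H w =>
    induction a using Submodule.Quotient.induction_on with | H a =>
    induction v using Submodule.Quotient.induction_on with | H v =>
    have hv0 : (Submodule.Quotient.mk v : V ⧸ X) ≠ 0 := fun e => hv (by simp [e])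
    rw [hA, hA, ← Submodule.map_sup, hmem _ (Submodule.mem_sup_left (C.left_mem _ _))] at hw
    rw [hA, hA, hA, ← Submodule.map_sup]
    exact Submodule.map_mono (C.geo e hlt ((hne _).1 ha) ((hne _).1 hv0) hw ((hne _).1 hw0))
  · intro w _
    induction w using Submodule.Quotient.induction_on with | H w =>
    rw [stabQuot_apply, hA, hA, ← Submodule.map_comp]
    conv_lhs => rw [← gx]
    rw [C.N_map g.1.2, ← Submodule.map_comp]
    rfl
  · rw [hA]
    obtain ⟨z, hz⟩ := exists_notMem (U := B) hlt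
    intro h
    exact hz ((hmem _ (C.left_mem _ _) z).1 (h ▸ Submodule.mem_top))
  · rw [hA]; exact ⟨_, y.2, rfl⟩
  · rw [hχ, φ2]
  · rw [hA]; exact ⟨_, a1.2, rfl⟩
  · rw [hχ, ha1]
  · rw [hA]
    rintro _ ⟨b, hb, rfl⟩
    have h1 := hg ⟨b, hb⟩
    rw [Submodule.mkQ_apply, stabQuot_apply, hχ ⟨b, hb⟩, ← Submodule.Quotient.mk_smul,
      ← Submodule.Quotient.mk_add, Submodule.Quotient.eq, sub_eq, ← add_assoc]
    rcases mem_span1.1 h1 with h | h
    · exact mem_span1.2 (Or.inl (congrArg Subtype.val h))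
    · exact mem_span1.2 (Or.inr (congrArg Subtype.val h))

theorem imp3 (h3 : C.D = 3) (hlt : 3 < finrank F2 V) : False := by
  have hn' : finrank F2 (Dual F2 V) = finrank F2 V := Subspace.dual_finrank_eq
  obtain ⟨C'⟩ := exists_ctx (C.tr.dual (by omega)) (by omega)
  let r : Dual F2 V → V → V → Prop := fun f a b => ¬ I2 a b ∨ C.N a b ≤ LinearMap.ker f
  let P : Dual F2 V → Dual F2 V → V → Prop := fun f g p =>
    f p = 0 ∧ p ≠ 0 ∧ ∀ b, f b = 0 → (r f p b ↔ g b = 0)
  have hP : ∀ f g, I2 f g → ∃! p, P f g p := by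
    intro f g hfg
    let H := LinearMap.ker f
    have hH : finrank F2 H + 1 = finrank F2 V := by
      obtain ⟨u, hu⟩ := exists_eq_one hfg.1
      have := finrank_inf_ker (L := ⊤) (x := u) trivial hu
      rwa [top_inf_eq, finrank_top] at this
    have key : ∀ a : H, a ≠ 0 → ∃ φ : Dual F2 H, φ ≠ 0 ∧ ∀ b : H, r f a b ↔ φ b = 0 := by
      intro a ha
      obtain ⟨W, w1, w2⟩ := C.ulem (by omega) (x := a.1) (fun e => ha (Subtype.ext e)) hfg.1 a.2
      have hW : W ≤ H := fun y hy => by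
        rcases (w2 y).1 hy with c | c
        · by_contra d
          exact c ⟨fun e => ha (Subtype.ext e), fun e => d (by simp [e]), fun e => d (e ▸ a.2)⟩
        · exact c (C.right_mem _ _)
      obtain ⟨φ, b1, b2⟩ := exists_ker (U := W.comap H.subtype)
        (by rw [finrank_comap_subtype, inf_eq_right.2 hW]; omega)
      exact ⟨φ, b1, fun b => (w2 b).symm.trans (b2 b)⟩
    obtain ⟨β, hβ⟩ := exists_bil (V := H) (fun a b => r f a b)
      (fun a b c => c.imp (fun d e => d e.symm) fun d => C.N_comm _ _ ▸ d) (fun a => by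
        by_cases ha : a = 0
        · exact ⟨0, fun b => by simp [ha, r, I2]⟩
        · obtain ⟨φ, -, c⟩ := key a ha
          exact ⟨φ, c⟩)
    have hinj : Function.Injective β := by
      rw [injective_iff_map_eq_zero]
      intro a ha
      by_contra h0
      obtain ⟨φ, b1, b2⟩ := key a h0
      exact b1 (LinearMap.ext fun b => (b2 b).1 ((hβ _ _).2 (by simp [ha])))
    obtain ⟨p, hp⟩ := (LinearMap.injective_iff_surjective_of_finrank_eq_finrank
      (Subspace.dual_finrank_eq (K := F2) (V := H)).symm).1 hinj (g ∘ₗ H.subtype)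
    refine ⟨p.1, ⟨p.2, fun e => ?_, fun b hb => (hβ p ⟨b, hb⟩).trans (by rw [hp]; rfl)⟩, ?_⟩
    · rw [show p = 0 from Subtype.ext e, map_zero] at hp
      have hg : ∀ v, f v = 0 → g v = 0 := fun v hv => (LinearMap.congr_fun hp ⟨v, hv⟩).symm
      obtain ⟨u, hu⟩ := exists_eq_one hfg.2.1
      have hu' : f u = 1 := f2_ne_zero.1 fun c => by simp [hg u c] at hu
      refine hfg.2.2 (LinearMap.ext fun v => ?_)
      rcases f2_cases (f v) with c | c
      · rw [c, hg v c]
      · have := hg (v + u) (by rw [map_add, c, hu', f2_add_self])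
        rw [map_add, hu, f2_add_eq_zero] at this
        rw [c, this]
    · rintro q ⟨q1, -, q3⟩
      refine congrArg Subtype.val (hinj (a₁ := ⟨q, q1⟩) (LinearMap.ext fun b => f2_eq_of_iff ?_))
      rw [← hβ, hp]; exact q3 b b.2
  let T' : Dual F2 V → Dual F2 V → Dual F2 V → Prop := fun f g h =>
    ¬ I3 f g h ∨ ∃ p, P f g p ∧ h p = 0
  have hinv : ∀ f g h f' g' h', R3 (G.map dl) f g h f' g' h' → T' f g h → T' f' g' h' := by
    rintro f g h _ _ _ ⟨_, ⟨k, hk, rfl⟩, rfl, rfl, rfl⟩ (a | ⟨p, ⟨p1, p2, p3⟩, p4⟩)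
    · exact Or.inl (by rwa [i3_map_iff])
    · refine Or.inr ⟨k p, ⟨by simpa using p1, by simpa using p2, fun b hb => ?_⟩, by simpa using p4⟩
      obtain ⟨b, rfl⟩ := k.surjective b
      have : (LinearMap.ker (dl k f)).comap (k : V →ₗ[F2] V) = LinearMap.ker f := by ext; simp
      simp only [r, i2_map_iff, C.N_map hk, Submodule.map_le_iff_le_comap, this]
      simpa [r] using p3 b (by simpa using hb)
  refine no_tri (V := Dual F2 V) (by omega) T' (fun f g h a => ?_) (fun f g h a => ?_)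
    (fun f g a h => Or.inl fun b => a b.i2) fun f g hfg => ?_
  · by_cases b : I3 f g h
    · exact hinv _ _ _ _ _ _ (C'.sw12 b) a
    · exact Or.inl fun c => b c.p12
  · by_cases b : I3 f g h
    · exact hinv _ _ _ _ _ _ (C'.sw23 b) a
    · exact Or.inl fun c => b c.p23
  · obtain ⟨p, hp, hu⟩ := hP f g hfg
    refine ⟨Dual.eval F2 V p, fun e => ?_, fun h => ⟨?_, fun a => Or.inr ⟨p, hp, a⟩⟩⟩
    · obtain ⟨φ, hφ⟩ := exists_dual1 hp.2.1
      have := LinearMap.congr_fun e φ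
      simp [hφ] at this
    · rintro (a | ⟨q, a, b⟩)
      · have g0 : g p = 0 := (hp.2.2 p hp.1).1 (Or.inl fun c => c.2.2 rfl)
        rw [i3_iff hfg, not_not] at a
        rcases a with rfl | rfl | rfl | rfl <;> simp [hp.1, g0]
      · rw [hu q a] at b; exact b

end Ctx

end

end CF.AFl
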