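import Cfsg.Agent.AFl.F

/-! The Cameron–Kantor theorem over `F₂`. -/

set_option autoImplicit false
set_option linter.style.haveILetI false

namespace CF.AFl

open Module CF.Geom
open scoped Pointwise

universe u

section
variable {V : Type u} [AddCommGroup V] [Module F2 V] [Finite V]

theorem eq_top_of_all_tv {G : Subgroup (GL2 V)}
    (h : ∀ (f : Dual F2 V) (v : V) (hv : f v = 0), LinearEquiv.transvection hv ∈ G) : G = ⊤ := by
  have h1 : LinearEquiv.transvections F2 V ⊆ G := by
    intro e he
    obtain ⟨f, v, hv, rfl⟩ := LinearEquiv.mem_transvections_iff.1 he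
    exact h f v hv
  have h2 : LinearEquiv.dilatransvections F2 V ⊆ G := by
    rintro e ⟨f, v, he⟩
    have he' : ∀ x, e x = x + f x • v := fun x => LinearMap.congr_fun he x
    rcases f2_cases (f v) with hv | hv
    · have : e = LinearEquiv.transvection hv := by
        ext x; rw [he', LinearEquiv.transvection.apply]
      rw [this]; exact h f v hv
    · have := he' v
      rw [hv, one_smul, add_self, LinearEquiv.map_eq_zero_iff] at this
      simp [this] at hv
  rw [eq_top_iff]
  intro e _
  have := LinearEquiv.mem_transvections_pow_mul_dilatransvections_of_not_isExceptional (e := e) (by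
    rintro ⟨a, b, c, d⟩
    rcases f2_cases c with rfl | rfl
    · haveI : Nontrivial (V ⧸ e.fixedSubmodule) := Module.nontrivial_of_finrank_pos (R := F2) (by omega)
      obtain ⟨x, hx⟩ := exists_ne (0 : V ⧸ e.fixedSubmodule)
      exact hx (by simpa using d x)
    · exact b (LinearEquiv.ext fun x => by simpa using d x))
  obtain ⟨a, ha, b, hb, rfl⟩ := this
  refine mul_mem ?_ (h2 hb)
  have : ∀ k : ℕ, LinearEquiv.transvections F2 V ^ k ⊆ G := by
    intro k
    induction k with
    | zero => rintro _ rfl; exact one_mem G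
    | succ k ih =>
      rw [pow_succ]
      rintro _ ⟨a, ha, b, hb, rfl⟩
      exact mul_mem (ih ha) (h1 hb)
  exact this _ ha

theorem Tr2.eq_top_of_tv {G : Subgroup (GL2 V)} (h : Tr2 G) (hn : 2 ≤ finrank F2 V) {g : GL2 V}
    (hg : g ∈ G) {φ : Dual F2 V} {y : V} (h0 : φ ≠ 0) (hy : y ≠ 0) (h1 : φ y = 0)
    (e : ∀ v, g v = v + φ v • y) : G = ⊤ := by
  refine eq_top_of_all_tv fun f v hv => ?_
  by_cases a : f = 0
  · subst a; rw [LinearEquiv.transvection.of_left_eq_zero]; exact one_mem G
  by_cases b : v = 0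
  · subst b; rw [LinearEquiv.transvection.of_right_eq_zero]; exact one_mem G
  obtain ⟨k, hk, rfl, rfl⟩ := h.af' hn hy b h0 a (by rw [h1, hv])
  have : LinearEquiv.transvection hv = k * g * k⁻¹ := by
    ext w; rw [LinearEquiv.transvection.apply]; simp [e]
  rw [this]; exact mul_mem (mul_mem hk hg) (inv_mem hk)

theorem exists_I3 (hn : 3 ≤ finrank F2 V) {x y : V} (h : I2 x y) :
    ∃ φ : Dual F2 V, φ ≠ 0 ∧ φ x = 0 ∧ φ y = 0 := by
  obtain ⟨z, hz⟩ := exists_notMem (U := Submodule.span F2 {x} ⊔ Submodule.span F2 {y}) (by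
    rw [Submodule.finrank_sup_span_singleton (by rw [mem_span1, ← i2_iff h.1]; exact h),
      finrank_span_singleton h.1]; omega)
  obtain ⟨φ, a, b⟩ := exists_dual hz
  exact ⟨φ, fun e => by simp [e] at a, b _ (Submodule.mem_sup_left (mem_span1.2 (Or.inr rfl))),
    b _ (Submodule.mem_sup_right (mem_span1.2 (Or.inr rfl)))⟩

theorem hasQ_top (hn : 3 ≤ finrank F2 V) : HasQ (⊤ : Subgroup (GL2 V)) := by
  intro x hx
  obtain ⟨y, hy⟩ := exists_I2 (by omega) hx
  obtain ⟨φ, a, b, c⟩ := exists_I3 hn hy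
  refine ⟨LinearEquiv.transvection c, trivial, by rw [LinearEquiv.transvection.apply]; simp [b],
    φ, y, a, b, c, hy, fun v => ?_⟩
  rw [LinearEquiv.transvection.apply, add_right_comm v, add_self, zero_add, add_self]
  exact Submodule.zero_mem _

/-- the group induced on the quotient by a point -/
abbrev QG (G : Subgroup (GL2 V)) (x : V) := (stabQuot G (Submodule.span F2 {x})).range

theorem stab_fix {G : Subgroup (GL2 V)} {x : V} (hx : x ≠ 0) {g : G} :
    g ∈ stabSet G (Submodule.span F2 {x} : Submodule F2 V) ↔ g.1 x = x := by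
  rw [mem_stabSet_iff_le]
  constructor
  · intro h
    exact (mem_span1.1 (h x (mem_span1.2 (Or.inr rfl)))).resolve_left (by simpa using hx)
  · intro h u hu
    rcases mem_span1.1 hu with rfl | rfl
    · simp
    · rw [h]; exact hu

theorem mk_ne_zero {x : V} (hx : x ≠ 0) {w : V} :
    (Submodule.Quotient.mk w : V ⧸ Submodule.span F2 {x}) ≠ 0 ↔ I2 x w := by
  rw [ne_eq, Submodule.Quotient.mk_eq_zero, mem_span1, i2_iff hx]

theorem finrank_quot {x : V} (hx : x ≠ 0) :
    finrank F2 (V ⧸ Submodule.span F2 {x}) + 1 = finrank F2 V := by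
  rw [← Submodule.finrank_quotient_add_finrank (Submodule.span F2 {x}), finrank_span_singleton hx]

theorem hasQ_of_quot {G : Subgroup (GL2 V)} (hn : 3 ≤ finrank F2 V)
    (h : ∀ x : V, x ≠ 0 → QG G x = ⊤) : HasQ G := by
  intro x hx
  obtain ⟨y, hy⟩ := exists_I2 (by omega) hx
  obtain ⟨φ, a, b, c⟩ := exists_I3 hn hy
  let χ : Dual F2 (V ⧸ Submodule.span F2 {x}) := (Submodule.span F2 {x}).liftQ φ (by
    rw [Submodule.span_singleton_le_iff_mem]; exact b)
  have c' : χ (Submodule.Quotient.mk y) = 0 := c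
  obtain ⟨g, hg⟩ := (h x hx).symm ▸ Subgroup.mem_top (LinearEquiv.transvection c')
  refine ⟨g.1.1, g.1.2, (stab_fix hx).1 g.2, φ, y, a, b, c, hy, fun v => ?_⟩
  have := LinearEquiv.congr_fun hg (Submodule.Quotient.mk v)
  rw [stabQuot_apply, LinearEquiv.transvection.apply, ← Submodule.Quotient.mk_smul,
    ← Submodule.Quotient.mk_add, Submodule.Quotient.eq, sub_eq, ← add_assoc] at this
  exact this

theorem tr2_quot {G : Subgroup (GL2 V)} (h : ∀ x y z x' y' z', I3 x y z → I3 x' y' z' →
    R3 G x y z x' y' z') {x : V} (hx : x ≠ 0) : Tr2 (QG G x) := by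
  have key : ∀ a b : V, I2 (Submodule.Quotient.mk a : V ⧸ Submodule.span F2 {x})
      (Submodule.Quotient.mk b) → I3 x a b := by
    intro a b ⟨h1, h2, h3⟩
    rw [mk_ne_zero hx] at h1 h2
    rw [ne_eq, Submodule.Quotient.eq, sub_eq, mem_span1] at h3
    rw [i3_iff h1]
    rintro (e | e | e | e)
    · exact h2.2.1 e
    · exact h2.2.2 e.symm
    · exact h3 (Or.inl (by rw [e, add_self]))
    · exact h3 (Or.inr (by rw [e, add_comm x, add_add_cancel]))
  intro a b a' b' h1 h2
  induction a using Submodule.Quotient.induction_on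
  induction b using Submodule.Quotient.induction_on
  induction a' using Submodule.Quotient.induction_on
  induction b' using Submodule.Quotient.induction_on
  obtain ⟨g, hg, e1, e2, e3⟩ := h _ _ _ _ _ _ (key _ _ h1) (key _ _ h2)
  exact ⟨_, ⟨⟨⟨g, hg⟩, (stab_fix hx).2 e1⟩, rfl⟩, by simp [e2], by simp [e3]⟩

theorem quot_inj {G : Subgroup (GL2 V)} (h : Tr2 G) (hn : 2 ≤ finrank F2 V) (hG : G ≠ ⊤) {x : V}
    (hx : x ≠ 0) : Function.Injective (stabQuot G (Submodule.span F2 {x})) := by
  rw [injective_iff_map_eq_one]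
  intro g hg
  obtain ⟨ψ, hψ⟩ := exists_dual1 hx
  let φ : Dual F2 V := ψ ∘ₗ ((g.1.1 : V →ₗ[F2] V) + LinearMap.id)
  have e : ∀ v, g.1.1 v = v + φ v • x := by
    intro v
    have := LinearEquiv.congr_fun hg (Submodule.Quotient.mk v)
    rw [stabQuot_apply, LinearEquiv.coe_one, id, Submodule.Quotient.eq, sub_eq, mem_span1] at this
    have e1 : φ v = ψ (g.1.1 v + v) := rfl
    rcases this with c | c
    · rw [e1, c]; simpa using add_eq_zero.1 c
    · rw [e1, c, hψ, one_smul, ← add_cancel_add (g.1.1 v) v, c, add_comm]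
  have h0 : φ = 0 := by
    by_contra c
    exact hG (h.eq_top_of_tv hn g.1.2 c hx
      (by show ψ (g.1.1 x + x) = 0; rw [(stab_fix hx).1 g.2, add_self, map_zero]) e)
  ext v
  simp [e, h0]

theorem no_lift {G : Subgroup (GL2 V)} (h : Tr2 G) (hn : 5 ≤ finrank F2 V) (hG : G ≠ ⊤) {x : V}
    (hx : x ≠ 0) (hK : QG G x = ⊤) : False := by
  have hinj := quot_inj h (by omega) hG hx
  have hW := finrank_quot hx
  set X := Submodule.span F2 {x}
  obtain ⟨y, hy⟩ := exists_I2 (by omega) hx
  obtain ⟨φ, a, b, c⟩ := exists_I3 (by omega) hy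
  have lift : ∀ (φ : Dual F2 V) (y : V), φ x = 0 → φ y = 0 → ∃ g : stabSet G X,
      ∀ v, stabQuot G X g (Submodule.Quotient.mk v) = Submodule.Quotient.mk (v + φ v • y) := by
    intro φ y b c
    let χ : Dual F2 (V ⧸ X) := X.liftQ φ (by rw [Submodule.span_singleton_le_iff_mem]; exact b)
    have c' : χ (Submodule.Quotient.mk y) = 0 := c
    obtain ⟨g, hg⟩ := hK.symm ▸ Subgroup.mem_top (LinearEquiv.transvection c')
    exact ⟨g, fun v => by rw [hg, LinearEquiv.transvection.apply]; rfl⟩
  obtain ⟨g, hg⟩ := lift φ y b c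
  obtain ⟨θ, hθ⟩ := exists_dual1 hx
  let ψ : Dual F2 V := θ ∘ₗ ((g.1.1 : V →ₗ[F2] V) + LinearMap.transvection φ y)
  have hx' : ∀ (k : stabSet G X) v w, stabQuot G X k (Submodule.Quotient.mk v) =
      Submodule.Quotient.mk w → k.1.1 v = w + θ (k.1.1 v + w) • x := by
    intro k v w e
    rw [stabQuot_apply, Submodule.Quotient.eq, sub_eq, mem_span1] at e
    rcases e with e | e
    · rw [e]; simpa using add_eq_zero.1 e
    · rw [e, hθ, one_smul, ← e, add_comm (k.1.1 v), add_add_cancel]
  have e : ∀ v, g.1.1 v = v + φ v • y + ψ v • x := fun v => hx' g v _ (hg v)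
  have gx := (stab_fix hx).1 g.2
  have ψx : ψ x = 0 := by
    have := e x
    rw [gx, b, zero_smul, add_zero, left_eq_add, smul_eq_zero] at this
    exact this.resolve_right hx
  have comm : ∀ k : stabSet G X, (∀ v, stabQuot G X k (stabQuot G X g (Submodule.Quotient.mk v)) =
      stabQuot G X g (stabQuot G X k (Submodule.Quotient.mk v))) → ∀ v,
      k.1.1 (g.1.1 v) = g.1.1 (k.1.1 v) := by
    intro k hk v
    have : k * g = g * k := hinj (by
      rw [map_mul, map_mul]
      ext w
      induction w using Submodule.Quotient.induction_on with | H w => exact hk w)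
    exact congrArg (fun t : stabSet G X => t.1.1 v) this
  have ψy : ψ y = 0 := by
    have g2 : g * g = 1 := hinj (by
      rw [map_mul, map_one]
      ext w
      induction w using Submodule.Quotient.induction_on with | H w =>
      rw [LinearEquiv.mul_apply, hg, hg]
      simp [c, add_cancel_add])
    obtain ⟨v, hv⟩ := exists_eq_one a
    have : g.1.1 (g.1.1 v) = v := congrArg (fun t : stabSet G X => t.1.1 v) g2
    rw [e v, map_add, map_add, map_smul, map_smul, gx, e v, e y, hv, c, one_smul, one_smul, zero_smul,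
      add_zero, show v + y + ψ v • x + (y + ψ y • x) + ψ v • x =
        v + ψ y • x + (y + y) + (ψ v • x + ψ v • x) by abel, add_self, add_self, add_zero, add_zero,
      add_eq_left, smul_eq_zero] at this
    exact this.resolve_right hx
  by_cases h1 : ψ = 0
  · exact hG (h.eq_top_of_tv (by omega) g.1.2 a hy.2.1 c fun v => by simp [e, h1])
  by_cases h2 : ψ = φ
  · exact hG (h.eq_top_of_tv (by omega) g.1.2 a hy.add.2.1 (by simp [b, c]) fun v => by
      rw [e, h2, smul_add]; abel)
  -- a vector `p` with `φ p = 0`, `ψ p = 1`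
  obtain ⟨p, p1, p2⟩ : ∃ p, φ p = 0 ∧ ψ p = 1 := by
    by_contra hc
    push Not at hc
    have hg : ∀ v, φ v = 0 → ψ v = 0 := fun v hv => not_not.1 (mt f2_ne_zero.1 (hc v hv))
    obtain ⟨u, hu⟩ := exists_eq_one h1
    have hu' : φ u = 1 := f2_ne_zero.1 fun c => by simp [hg u c] at hu
    refine h2 (LinearMap.ext fun v => ?_)
    rcases f2_cases (φ v) with c | c
    · rw [c, hg v c]
    · have := hg (v + u) (by rw [map_add, c, hu', f2_add_self])
      rw [map_add, hu, f2_add_eq_zero] at this
      rw [c, this]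
  obtain ⟨z, z1, z2⟩ := exists_mem_notMem (L := ⊤ ⊓ LinearMap.ker φ)
    (K := Submodule.span F2 {x} ⊔ Submodule.span F2 {y} ⊔ Submodule.span F2 {p}) (by
      have := finrank_le_inf_ker ⊤ φ
      have := Submodule.finrank_add_le_finrank_add_finrank
        (Submodule.span F2 {x} ⊔ Submodule.span F2 {y}) (Submodule.span F2 {p})
      have := Submodule.finrank_add_le_finrank_add_finrank (Submodule.span F2 {x}) (Submodule.span F2 {y})
      have := finrank_span_singleton (K := F2) hx
      have := finrank_span_singleton (K := F2) hy.2.1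
      have := finrank_span_singleton (K := F2) (show p ≠ 0 from fun e => by simp [e] at p2)
      rw [finrank_top] at *
      omega)
  obtain ⟨χ, c1, c2⟩ := exists_dual z2
  have χx : χ x = 0 := c2 _ (Submodule.mem_sup_left (Submodule.mem_sup_left (mem_span1.2 (Or.inr rfl))))
  have χy : χ y = 0 := c2 _ (Submodule.mem_sup_left (Submodule.mem_sup_right (mem_span1.2 (Or.inr rfl))))
  have χp : χ p = 0 := c2 _ (Submodule.mem_sup_right (mem_span1.2 (Or.inr rfl)))
  obtain ⟨k, hk⟩ := lift χ p χx χp
  have kx := (stab_fix hx).1 k.2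
  have := comm k (fun v => by
    rw [hg, hk, hk, hg]
    simp only [map_add, map_smul, χy, p1, smul_eq_mul, mul_zero, add_zero]
    congr 1; abel) z
  have φz : φ z = 0 := z1.2
  have kz := hx' k z _ (hk z)
  rw [c1, one_smul] at kz
  rw [e z, e (k.1.1 z), φz, zero_smul, add_zero, map_add, map_smul, kx, kz] at this
  simp only [map_add, map_smul, φz, p1, b, ψx, p2, smul_eq_mul, mul_zero, add_zero, zero_smul,
    add_right_inj, add_smul, one_smul, left_eq_add] at this
  exact hx this

end

/-- Cameron–Kantor over `F₂`. -/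
theorem ck_main (n : ℕ) : ∀ (V : Type u) [AddCommGroup V] [Module F2 V] [Finite V],
    finrank F2 V = n → 2 ≤ n → ∀ G : Subgroup (GL2 V), Tr2 G →
      (G = ⊤ ∨ (n = 4 ∧ Nat.card G = 2520)) ∧ (3 ≤ n → HasQ G) := by
  induction n using Nat.strong_induction_on with | _ n ih =>
  intro V _ _ _ hn h2 G hG
  by_cases hT : G = ⊤
  · exact ⟨Or.inl hT, fun h => hT ▸ hasQ_top (by omega)⟩
  rcases Nat.eq_or_lt_of_le h2 with rfl | h3
  · refine absurd (eq_top_iff.2 fun e _ => ?_) hT
    haveI : Nontrivial V := Module.nontrivial_of_finrank_pos (R := F2) (by omega)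
    obtain ⟨x, hx⟩ := exists_ne (0 : V)
    obtain ⟨y, hy⟩ := exists_I2 hn.ge hx
    obtain ⟨g, hg, a, b⟩ := hG _ _ _ _ hy (hy.map e)
    have : Submodule.span F2 {x} ⊔ Submodule.span F2 {y} = ⊤ := Submodule.eq_top_of_finrank_eq (by
      rw [Submodule.finrank_sup_span_singleton (by rw [mem_span1, ← i2_iff hx]; exact hy),
        finrank_span_singleton hx, hn])
    rw [← Submodule.span_union] at this
    have : e = g := LinearEquiv.toLinearMap_injective
      (LinearMap.ext_on this (by rintro _ (rfl | rfl) <;> simp [a, b]))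
    rwa [this]
  obtain ⟨C⟩ := exists_ctx hG (by omega)
  have hD : C.D = finrank F2 V := by
    by_contra hne
    have hlt := lt_of_le_of_ne C.D_le hne
    rcases C.iota with e | ⟨a, b, c⟩
    · rcases Nat.eq_or_lt_of_le C.three_le_D with e3 | e3
      · exact C.imp3 e3.symm (by omega)
      · exact C.imp4 e hlt e3 ((ih C.D (by omega) _ rfl (by omega) _ (C.tr_block e)).2 (by omega))
    · exact Ctx.Prim.false ⟨a, b, c⟩
  have h3t : ∀ x y z x' y' z' : V, I3 x y z → I3 x' y' z' → R3 G x y z x' y' z' := by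
    have : ∀ x y z : V, I3 x y z → C.Col 2 x y z := fun x y z h => Ctx.T.col
      (show z ∈ C.N x y by
        rw [Submodule.eq_top_of_finrank_eq ((C.finrank_N h.i2).trans hD)]; trivial) h
    exact fun _ _ _ _ _ _ a b => (this _ _ _ a).2.symm.trans (this _ _ _ b).2
  have hK : ∀ x : V, x ≠ 0 → QG G x = ⊤ := by
    intro x hx
    have hW := finrank_quot hx
    refine (ih (n - 1) (by omega) _ (by omega) (by omega) _ (tr2_quot h3t hx)).1.resolve_right ?_
    rintro ⟨a, b⟩
    obtain ⟨f, hf⟩ := exists_dual1 hx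
    have d := hG.dvd_index (by omega) hf ⊥ (by rintro g rfl; simp)
    rw [Subgroup.relIndex_bot_left, show MulAction.stabilizer G x =
      stabSet G (Submodule.span F2 {x} : Submodule F2 V) from Subgroup.ext fun g => (stab_fix hx).symm,
      Nat.card_congr (MonoidHom.ofInjective (quot_inj hG (by omega) hT hx)).toEquiv, b,
      show finrank F2 V - 1 = 4 by omega] at d
    omega
  refine ⟨Or.inr ?_, fun h => hasQ_of_quot (by omega) hK⟩
  have hx := C.i2.1
  have h5 : n < 5 := by
    by_contra c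
    exact no_lift hG (by omega) hT hx (hK _ hx)
  have h4 : n ≠ 3 := by
    intro c
    obtain ⟨g, hg, a, b, d⟩ := C.tv C.col2.1
    obtain ⟨φ, p0, p1⟩ := exists_ker (U := C.U 2) (by rw [C.Φ.finrank_U (by omega)]; omega)
    have p2 : φ (C.v 2) = 1 := f2_ne_zero.1 fun e => C.Φ.nm C.hn ((p1 _).2 e)
    have fx : ∀ v ∈ C.U 2, g v = v := fun v hv => by
      rcases C.mem_U2.1 hv with rfl | rfl | rfl | rfl <;> simp [a, b]
    refine hT (hG.eq_top_of_tv (by omega) hg p0 hx ((p1 _).1 (C.Φ.v_mem (by omega))) fun v => ?_)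
    rcases f2_cases (φ v) with e | e
    · rw [e, fx v ((p1 v).2 e)]; simp
    · have := fx (v + C.v 2) ((p1 _).2 (by rw [map_add, e, p2, f2_add_self]))
      rw [map_add, d] at this
      rw [e, one_smul, ← add_cancel_add (g v) (C.v 2 + C.v 0), this, add_assoc, add_add_cancel]
  refine ⟨by omega, ?_⟩
  have hW := finrank_quot hx
  have c1 := (MulAction.stabilizer G (C.v 0)).card_mul_index
  rw [MulAction.index_stabilizer, show MulAction.stabilizer G (C.v 0) =
      stabSet G (Submodule.span F2 {C.v 0} : Submodule F2 V) from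
      Subgroup.ext fun g => (stab_fix hx).symm,
    Nat.card_congr (MonoidHom.ofInjective (quot_inj hG (by omega) hT hx)).toEquiv] at c1
  have c2 : Nat.card (QG G (C.v 0)) = 168 := by
    rw [hK _ hx, Subgroup.card_top, card_linearEquiv (k := 3) (by omega)]
    simp [Fin.prod_univ_three]
  have c3 : MulAction.orbit G (C.v 0) = ((⊤ : Submodule F2 V) : Set V) \ {0} := by
    ext w
    constructor
    · rintro ⟨g, rfl⟩
      exact ⟨trivial, fun e => hx (g.1.map_eq_zero_iff.1 e)⟩
    · rintro ⟨-, a⟩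
      obtain ⟨g, hg, e⟩ := hG.tr1 (by omega) hx a
      exact ⟨⟨g, hg⟩, e⟩
  have c4 := Set.ncard_diff_singleton_add_one (s := ((⊤ : Submodule F2 V) : Set V)) (a := 0) trivial
  rw [card_sub, finrank_top, show finrank F2 V = 4 by omega, ← c3] at c4
  rw [← c1, c2]; omega

end CF.AFl
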